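import Mathlib
import Cfsg.Agent.Eq.Def_Solvable
import Cfsg.Agent.Eq.Def_Transfer
import Cfsg.Agent.Coprime.Sylow
import Cfsg.Agent.LocalP.ThompsonJ
import Cfsg.Agent.SolvableSFour.Action

/-!
The square bound as a hypothesis on a 2-subgroup, and counting lemmas for elementary 2-groups.
-/

set_option autoImplicit false

namespace CfsgLib.SolvableSFour

open Cfsg

variable {X : Type*} [Group X]

theorem elem_closure {s : Set X} (hc : ∀ a ∈ s, ∀ b ∈ s, a * b = b * a) (hs : ∀ a ∈ s, a * a = 1) :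
    Elem (Subgroup.closure s) := by
  haveI : IsMulCommutative (Subgroup.closure s) := Subgroup.isMulCommutative_closure hc
  have hcomm : ∀ a ∈ Subgroup.closure s, ∀ b ∈ Subgroup.closure s, a * b = b * a := fun a ha b hb =>
    congrArg Subtype.val (mul_comm' (⟨a, ha⟩ : Subgroup.closure s) ⟨b, hb⟩)
  refine ⟨hcomm, fun a ha => ?_⟩
  induction ha using Subgroup.closure_induction with
  | mem x hx => exact hs x hx
  | one => exact one_mul _
  | mul x y hx hy hpx hpy =>
    rw [mul_assoc, ← mul_assoc y, hcomm y hy x hx, mul_assoc x y y, hpy, mul_one, hpx]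
  | inv x _ hpx => rw [← mul_inv_rev, hpx, inv_one]

theorem elem_sup {A B : Subgroup X} (hA : Elem A) (hB : Elem B)
    (h : ∀ a ∈ A, ∀ b ∈ B, a * b = b * a) : Elem (A ⊔ B) := by
  rw [Subgroup.sup_eq_closure]
  refine elem_closure ?_ ?_
  · rintro x (hx | hx) y (hy | hy)
    · exact hA.comm x hx y hy
    · exact h x hx y hy
    · exact (h y hy x hx).symm
    · exact hB.comm x hx y hy
  · rintro x (hx | hx)
    · exact hA.sq x hx
    · exact hB.sq x hx

theorem Elem.isElementaryAbelian {A : Subgroup X} (h : Elem A) : IsElementaryAbelian 2 A :=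
  CfsgLib.LocalP.isElementaryAbelian_iff.2 ⟨h.comm, fun a ha => by rw [pow_two, h.sq a ha]⟩

theorem Elem.of_isElementaryAbelian {A : Subgroup X} (h : IsElementaryAbelian 2 A) : Elem A :=
  ⟨(CfsgLib.LocalP.isElementaryAbelian_iff.1 h).1, fun a ha => by
    rw [← pow_two]; exact (CfsgLib.LocalP.isElementaryAbelian_iff.1 h).2 a ha⟩

theorem Elem.isPGroup {A : Subgroup X} (h : Elem A) : IsPGroup 2 A :=
  CfsgLib.LocalP.isPGroup_of_isElementaryAbelian h.isElementaryAbelian

theorem map_inf_centralizer_of_injective {Y : Type*} [Group Y] (f : X →* Y)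
    (hf : Function.Injective f) (A B : Subgroup X) :
    (A ⊓ Subgroup.centralizer (B : Set X)).map f =
      A.map f ⊓ Subgroup.centralizer ((B.map f : Subgroup Y) : Set Y) := by
  ext y
  constructor
  · rintro ⟨a, ⟨ha, hc⟩, rfl⟩
    refine ⟨⟨a, ha, rfl⟩, Subgroup.mem_centralizer_iff.2 ?_⟩
    rintro _ ⟨b, hb, rfl⟩
    rw [← map_mul, Subgroup.mem_centralizer_iff.1 hc b hb, map_mul]
  · rintro ⟨⟨a, ha, rfl⟩, hc⟩
    refine ⟨a, ⟨ha, Subgroup.mem_centralizer_iff.2 fun b hb => hf ?_⟩, rfl⟩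
    rw [map_mul, map_mul, Subgroup.mem_centralizer_iff.1 hc _ ⟨b, hb, rfl⟩]

theorem card_inf_centralizer_map {Y : Type*} [Group Y] (f : X →* Y)
    (hf : Function.Injective f) (A B : Subgroup X) :
    Nat.card ↥(A.map f ⊓ Subgroup.centralizer ((B.map f : Subgroup Y) : Set Y)) =
      Nat.card ↥(A ⊓ Subgroup.centralizer (B : Set X)) := by
  rw [← map_inf_centralizer_of_injective f hf, Subgroup.card_map_of_injective hf]

/-- The square bound for all subgroups of `S` acting on `V` as elementary abelian groups. -/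
def SqBound (S V : Subgroup X) : Prop :=
  ∀ E : Subgroup X, E ≤ S →
    (∀ a ∈ E, ∀ b ∈ E, a * b * a⁻¹ * b⁻¹ ∈ Subgroup.centralizer (V : Set X)) →
    (∀ a ∈ E, a * a ∈ Subgroup.centralizer (V : Set X)) →
    Nat.card E ^ 2 * Nat.card ↥(V ⊓ Subgroup.centralizer (E : Set X)) ≤
      Nat.card V * Nat.card ↥(E ⊓ Subgroup.centralizer (V : Set X)) ^ 2

theorem SqBound.of_map {Y : Type*} [Group Y] (f : X →* Y) (hf : Function.Injective f)
    {S V : Subgroup X} (h : SqBound (S.map f) (V.map f)) : SqBound S V := by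
  intro E hE hc hs
  have hcent : ∀ z ∈ Subgroup.centralizer (V : Set X),
      f z ∈ Subgroup.centralizer ((V.map f : Subgroup Y) : Set Y) := by
    intro z hz
    refine Subgroup.mem_centralizer_iff.2 ?_
    rintro _ ⟨v, hv, rfl⟩
    rw [← map_mul, Subgroup.mem_centralizer_iff.1 hz v hv, map_mul]
  have h1 := h (E.map f) (Subgroup.map_mono hE)
    (by
      rintro _ ⟨a, ha, rfl⟩ _ ⟨b, hb, rfl⟩
      simpa using hcent _ (hc a ha b hb))
    (by
      rintro _ ⟨a, ha, rfl⟩
      simpa using hcent _ (hs a ha))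
  rwa [card_inf_centralizer_map f hf, card_inf_centralizer_map f hf,
    Subgroup.card_map_of_injective hf, Subgroup.card_map_of_injective hf] at h1

theorem SqBound.conj {S V : Subgroup X} (h : SqBound S V) (k : X) (E : Subgroup X)
    (hE : ∀ x ∈ E, k⁻¹ * x * k ∈ S)
    (hc : ∀ a ∈ E, ∀ b ∈ E, a * b * a⁻¹ * b⁻¹ ∈
      Subgroup.centralizer ((V.map (MulAut.conj k).toMonoidHom : Subgroup X) : Set X))
    (hs : ∀ a ∈ E, a * a ∈
      Subgroup.centralizer ((V.map (MulAut.conj k).toMonoidHom : Subgroup X) : Set X)) :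
    Nat.card E ^ 2 * Nat.card ↥(V.map (MulAut.conj k).toMonoidHom ⊓
        Subgroup.centralizer (E : Set X)) ≤
      Nat.card ↥(V.map (MulAut.conj k).toMonoidHom) * Nat.card ↥(E ⊓
        Subgroup.centralizer ((V.map (MulAut.conj k).toMonoidHom : Subgroup X) : Set X)) ^ 2 := by
  have h' : SqBound (S.map (MulAut.conj k).toMonoidHom) (V.map (MulAut.conj k).toMonoidHom) := by
    refine SqBound.of_map (MulAut.conj k⁻¹).toMonoidHom (MulAut.conj k⁻¹).injective ?_
    rwa [CfsgLib.Coprime.map_conj_map_conj, CfsgLib.Coprime.map_conj_map_conj, inv_mul_cancel,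
      CfsgLib.Coprime.map_conj_one, CfsgLib.Coprime.map_conj_one]
  exact h' E (fun x hx => CfsgLib.Coprime.mem_map_conj_iff.2 (hE x hx)) hc hs

theorem SqBound.conj_elem {S V : Subgroup X} (h : SqBound S V) (k : X) {E : Subgroup X}
    (hEel : Elem E) (hE : ∀ x ∈ E, k⁻¹ * x * k ∈ S) :
    Nat.card E ^ 2 * Nat.card ↥(V.map (MulAut.conj k).toMonoidHom ⊓
        Subgroup.centralizer (E : Set X)) ≤
      Nat.card ↥(V.map (MulAut.conj k).toMonoidHom) * Nat.card ↥(E ⊓
        Subgroup.centralizer ((V.map (MulAut.conj k).toMonoidHom : Subgroup X) : Set X)) ^ 2 :=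
  h.conj k E hE (fun a ha b hb => by
      rw [hEel.comm a ha b hb, mul_inv_cancel_right, mul_inv_cancel]; exact one_mem _)
    (fun a ha => by rw [hEel.sq a ha]; exact one_mem _)

theorem SqBound.elem {S V : Subgroup X} (h : SqBound S V) {E : Subgroup X} (hE : E ≤ S)
    (hEel : Elem E) :
    Nat.card E ^ 2 * Nat.card ↥(V ⊓ Subgroup.centralizer (E : Set X)) ≤
      Nat.card V * Nat.card ↥(E ⊓ Subgroup.centralizer (V : Set X)) ^ 2 :=
  h E hE (fun a ha b hb => by
      rw [hEel.comm a ha b hb, mul_inv_cancel_right, mul_inv_cancel]; exact one_mem _)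
    (fun a ha => by rw [hEel.sq a ha]; exact one_mem _)

theorem mem_or_mul_mem {A B : Subgroup X} {t : X} (hA : Elem A) (htA : t ∈ A) (hBA : B ≤ A)
    (hsup : B ⊔ Subgroup.zpowers t = A) {c : X} (hc : c ∈ A) : c ∈ B ∨ c * t ∈ B := by
  have hz : Subgroup.zpowers t ≤ Subgroup.normalizer (B : Set X) := by
    refine Subgroup.zpowers_le.2 (Subgroup.centralizer_le_normalizer _ ?_)
    exact Subgroup.mem_centralizer_iff.2 fun b hb => hA.comm b (hBA hb) t htA
  rw [← hsup] at hc
  have hc' : c ∈ ((B ⊔ Subgroup.zpowers t : Subgroup X) : Set X) := hc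
  rw [Subgroup.coe_mul_of_right_le_normalizer_left B (Subgroup.zpowers t) hz] at hc'
  obtain ⟨b, hb, _, ⟨i, rfl⟩, rfl⟩ := hc'
  have htt : t * t = 1 := hA.sq t htA
  rcases Int.even_or_odd i with ⟨k, rfl⟩ | ⟨k, rfl⟩
  · left
    have : t ^ (k + k) = 1 := by rw [← two_mul, zpow_mul, zpow_two, htt, one_zpow]
    simp only [this, mul_one]
    exact hb
  · right
    have : t ^ (2 * k + 1) = t := by
      rw [zpow_add, zpow_mul, zpow_two, htt, one_zpow, one_mul, zpow_one]
    simp only [this, mul_assoc, htt, mul_one]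
    exact hb

theorem card_le_two_mul [Finite X] {A B : Subgroup X} {t : X} (hA : Elem A) (htA : t ∈ A)
    (hBA : B ≤ A) (hsup : B ⊔ Subgroup.zpowers t = A) : Nat.card A ≤ 2 * Nat.card B := by
  classical
  let f : A → B ⊕ B := fun c =>
    if h : (c : X) ∈ B then .inl ⟨c, h⟩ else
      .inr ⟨c * t, (mem_or_mul_mem hA htA hBA hsup c.2).resolve_left h⟩
  have hf : Function.Injective f := by
    intro c d h
    simp only [f] at h
    split_ifs at h with h1 h2 h2
    · exact Subtype.ext (congrArg Subtype.val (Sum.inl_injective h) :)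
    · exact Subtype.ext (mul_right_cancel (congrArg Subtype.val (Sum.inr_injective h)))
  have := Nat.card_le_card_of_injective f hf
  rwa [Nat.card_sum, ← two_mul] at this

theorem mul_mem_of_card_le [Finite X] {H K : Subgroup X} (hHK : H ≤ K)
    (hcard : Nat.card K ≤ 2 * Nat.card H) {a b : X} (ha : a ∈ K) (hb : b ∈ K) (haH : a ∉ H)
    (hbH : b ∉ H) : a * b ∈ H := by
  have h3 := Subgroup.relIndex_mul_relIndex ⊥ H K bot_le hHK
  simp only [Subgroup.relIndex_bot_left] at h3
  rw [← h3, mul_comm 2] at hcard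
  have h2 : H.relIndex K ≤ 2 := Nat.le_of_mul_le_mul_left hcard Nat.card_pos
  rcases (show H.relIndex K = 1 ∨ H.relIndex K = 2 by
    have : H.relIndex K ≠ 0 := Subgroup.index_ne_zero_of_finite
    omega) with h | h
  · exact absurd (Subgroup.relIndex_eq_one.1 h ha) haH
  · exact (Subgroup.mul_mem_iff_of_index_two (H := H.subgroupOf K) h
      (a := ⟨a, ha⟩) (b := ⟨b, hb⟩)).2 (iff_of_false haH hbH)

/-- An element of odd order acts with order three or trivially on an elementary group of order at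
most four. -/
theorem cube_of_card_le_four [Finite X] {M : Subgroup X} (hM : Elem M) {g : X}
    (hg : g ∈ Subgroup.normalizer (M : Set X)) {n : ℕ} (hn : Odd n)
    (hgn : g ^ n ∈ Subgroup.centralizer (M : Set X)) (hcard : Nat.card M ≤ 4) :
    g ^ 3 ∈ Subgroup.centralizer (M : Set X) := by
  classical
  refine Subgroup.mem_centralizer_iff.2 fun m hm => ?_
  by_cases hgm : Commute g m
  · exact (hgm.pow_left 3).eq.symm
  set a := g * m * g⁻¹ with ha
  have haM : a ∈ M := conj_mem_of_mem_normalizer hg hm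
  have hbM : g * a * g⁻¹ ∈ M := conj_mem_of_mem_normalizer hg haM
  have ham : a ≠ m := fun h => hgm (mul_inv_eq_iff_eq_mul.1 h)
  have hm1 : m ≠ 1 := fun h => hgm (h ▸ Commute.one_right g)
  have ha1 : a ≠ 1 := fun h => hm1 (by rw [ha] at h; simpa using h)
  have hb1 : g * a * g⁻¹ ≠ 1 := fun h => ha1 (by simpa using h)
  have hbm : g * a * g⁻¹ ≠ m := fun h => hgm (commute_of_sq_commute hn
    (mul_inv_eq_iff_eq_mul.1 ((conj_sq' g m).trans h)) (commute_of_mem_centralizer hgn hm))
  have hba : g * a * g⁻¹ ≠ a := fun h => ham (mul_left_cancel (mul_right_cancel h))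
  have hb : g * a * g⁻¹ = m * a := by
    by_contra hne
    have hma : m * a ≠ 1 := fun h => ham (hM.eq_of_mul_eq_one hm h)
    have h1 : m * a ≠ m := fun h => ha1 (mul_eq_left.1 h)
    have h2 : m * a ≠ a := fun h => hm1 (mul_eq_right.1 h)
    have hsub : ({1, g * a * g⁻¹, m * a, m, a} : Set X) ⊆ (M : Set X) := by
      rintro z (rfl | rfl | rfl | rfl | rfl)
      exacts [one_mem _, hbM, mul_mem hm haM, hm, haM]
    have h5 := Set.ncard_le_ncard hsub (Set.toFinite _)
    rw [← Nat.card_coe_set_eq (M : Set X),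
      Set.ncard_insert_of_notMem (by simp [hb1.symm, hma.symm, hm1.symm, ha1.symm]) (Set.toFinite _),
      Set.ncard_insert_of_notMem (by simp [hne, hbm, hba]) (Set.toFinite _),
      Set.ncard_insert_of_notMem (by simp [h1, h2]) (Set.toFinite _),
      Set.ncard_pair ham.symm] at h5
    have h6 : Nat.card (M : Set X) = Nat.card M := rfl
    omega
  have h3 : g ^ 3 * m * (g ^ 3)⁻¹ = m := by
    rw [conj_cube', ← ha, hb, show g * (m * a) * g⁻¹ = g * m * g⁻¹ * (g * a * g⁻¹) by group, ← ha,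
      hb, hM.comm m hm a haM, ← mul_assoc, hM.sq a haM, one_mul]
  exact (mul_inv_eq_iff_eq_mul.1 h3).symm

/-- An inverted element of odd order is, modulo the centraliser, a power of its cube. -/
theorem exists_pow_cube [Finite X] (hS4 : ¬ Cfsg.Involves (Equiv.Perm (Fin 4)) X) {W : Subgroup X}
    [W.Normal] (hW : Elem W) {t x : X} (ht : t * t = 1) (hinv : t * x * t⁻¹ = x⁻¹)
    (hodd : Odd (orderOf x)) :
    ∃ q : ℕ, (x ^ 3) ^ q * x⁻¹ ∈ Subgroup.centralizer (W : Set X) := by
  set C := Subgroup.centralizer (W : Set X) with hC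
  have hWtop : ∀ z : X, z ∈ Subgroup.normalizer (W : Set X) := fun z => by
    rw [Subgroup.normalizer_eq_top]; trivial
  set π := QuotientGroup.mk' C with hπ
  set m := orderOf (π x) with hm
  have hmodd : Odd m := hodd.of_dvd_nat (orderOf_map_dvd π x)
  have hmpos : 0 < m := orderOf_pos _
  have h3 : ¬ 3 ∣ m := by
    rintro ⟨r, hr⟩
    set y := x ^ r with hy
    have hy3 : y ^ 3 ∈ C := by
      refine (QuotientGroup.eq_one_iff _).1 (show π (y ^ 3) = 1 from ?_)
      rw [hy, ← pow_mul, mul_comm, ← hr, map_pow, hm, pow_orderOf_eq_one]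
    have hyC : y ∈ C := cube_trivial hS4 hW (hWtop y) (hWtop t) (by rw [ht]; exact one_mem _)
      (by rw [hy, ← conj_pow, hinv, inv_pow, inv_mul_cancel]; exact one_mem _) hy3
    have h1 : π x ^ r = 1 := by rw [← map_pow]; exact (QuotientGroup.eq_one_iff _).2 hyC
    have h2 := Nat.le_of_dvd (by omega) (orderOf_dvd_of_pow_eq_one h1)
    omega
  obtain ⟨q, j, hq⟩ : ∃ q j, 3 * q = m * j + 1 := by
    rcases (show m % 3 = 1 ∨ m % 3 = 2 by omega) with h | h
    · exact ⟨(2 * m + 1) / 3, 2, by omega⟩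
    · exact ⟨(m + 1) / 3, 1, by omega⟩
  refine ⟨q, (QuotientGroup.eq_one_iff _).1 (show π ((x ^ 3) ^ q * x⁻¹) = 1 from ?_)⟩
  rw [← pow_mul, hq, map_mul, map_pow, map_inv, pow_succ, pow_mul, hm, pow_orderOf_eq_one, one_pow,
    one_mul, mul_inv_cancel]

/-- A bound on a normal closure from the bound on each conjugate. -/
theorem greedy_bound [Finite X] {S V Q : Subgroup X} [Q.Normal] (hb : SqBound S V) (hQS : Q ≤ S) :
    ∀ (n : ℕ) (E : Subgroup X), Nat.card E = n → E ≤ Q →
      (∀ a ∈ E, ∀ b ∈ E, a * b * a⁻¹ * b⁻¹ ∈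
        Subgroup.centralizer ((Subgroup.normalClosure (V : Set X) : Subgroup X) : Set X)) →
      (∀ a ∈ E, a * a ∈
        Subgroup.centralizer ((Subgroup.normalClosure (V : Set X) : Subgroup X) : Set X)) →
      Nat.card E ^ 2 * Nat.card ↥(Subgroup.normalClosure (V : Set X) ⊓
          Subgroup.centralizer (E : Set X)) ≤
        Nat.card ↥(Subgroup.normalClosure (V : Set X)) * Nat.card ↥(E ⊓ Subgroup.centralizer
          ((Subgroup.normalClosure (V : Set X) : Subgroup X) : Set X)) ^ 2 := by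
  set W := Subgroup.normalClosure (V : Set X) with hW
  intro n
  induction n using Nat.strong_induction_on with
  | _ n ih =>
  intro E hn hEQ hc hs
  by_cases hall : ∀ g : X, ∀ v ∈ V, ∀ e ∈ E, Commute e (g * v * g⁻¹)
  · have hWE : W ≤ Subgroup.centralizer (E : Set X) := by
      rw [hW, Subgroup.normalClosure, Subgroup.closure_le]
      intro w hw
      obtain ⟨v, hv, hvw⟩ := Group.mem_conjugatesOfSet_iff.1 hw
      obtain ⟨g, rfl⟩ := isConj_iff.1 hvw
      exact Subgroup.mem_centralizer_iff.2 fun e he => (hall g v hv e he).eq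
    rw [inf_eq_left.2 hWE, inf_eq_left.2 (Subgroup.le_centralizer_iff.1 hWE), mul_comm]
  push Not at hall
  obtain ⟨g, v, hv, e, he, hne⟩ := hall
  set V' := V.map (MulAut.conj g).toMonoidHom with hV'
  have hVW : V' ≤ W := by
    rintro _ ⟨w, hw, rfl⟩
    exact Subgroup.normalClosure_normal.conj_mem w (Subgroup.subset_normalClosure hw) g
  have hcV : Subgroup.centralizer (W : Set X) ≤ Subgroup.centralizer (V' : Set X) :=
    Subgroup.centralizer_le hVW
  have h1 := hb.conj g E (fun y hy => hQS (by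
      have := (inferInstance : Q.Normal).conj_mem y (hEQ hy) g⁻¹
      simpa using this))
    (fun a ha b hb => hcV (hc a ha b hb)) (fun a ha => hcV (hs a ha))
  rw [← hV'] at h1
  set E1 := E ⊓ Subgroup.centralizer (V' : Set X) with hE1
  have hlt : Nat.card E1 < n := by
    rw [← hn]
    refine lt_of_le_of_ne (Subgroup.card_le_of_le inf_le_left) fun h => hne ?_
    have h2 : e ∈ E1 := (Subgroup.eq_of_le_of_card_ge (inf_le_left : E1 ≤ E) h.ge).ge he
    exact (Subgroup.mem_centralizer_iff.1 h2.2 (g * v * g⁻¹) ⟨v, hv, rfl⟩).symm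
  have h2 := ih _ hlt E1 rfl (inf_le_left.trans hEQ) (fun a ha b hb => hc a ha.1 b hb.1)
    fun a ha => hs a ha.1
  have h3 : E1 ⊓ Subgroup.centralizer (W : Set X) = E ⊓ Subgroup.centralizer (W : Set X) := by
    rw [hE1, inf_assoc, inf_eq_right.2 hcV]
  rw [h3] at h2
  have h4 : Nat.card V' * Nat.card ↥(W ⊓ Subgroup.centralizer (E : Set X)) ≤
      Nat.card ↥(W ⊓ Subgroup.centralizer (E1 : Set X)) *
        Nat.card ↥(V' ⊓ Subgroup.centralizer (E : Set X)) := by
    refine (CfsgLib.LocalP.card_mul_le_card_sup_mul_card_inf V'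
      (W ⊓ Subgroup.centralizer (E : Set X))).trans (Nat.mul_le_mul ?_ ?_)
    · refine Subgroup.card_le_of_le (sup_le (le_inf hVW ?_)
        (inf_le_inf_left _ (Subgroup.centralizer_le inf_le_left)))
      exact Subgroup.le_centralizer_iff.1 inf_le_right
    · exact Subgroup.card_le_of_le (le_inf inf_le_left (inf_le_right.trans inf_le_right))
  refine Nat.le_of_mul_le_mul_left ?_
    (Nat.card_pos : 0 < Nat.card ↥(V' ⊓ Subgroup.centralizer (E : Set X)))
  calc Nat.card ↥(V' ⊓ Subgroup.centralizer (E : Set X)) *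
        (Nat.card E ^ 2 * Nat.card ↥(W ⊓ Subgroup.centralizer (E : Set X)))
      = Nat.card E ^ 2 * Nat.card ↥(V' ⊓ Subgroup.centralizer (E : Set X)) *
        Nat.card ↥(W ⊓ Subgroup.centralizer (E : Set X)) := by ring
    _ ≤ Nat.card V' * Nat.card E1 ^ 2 * Nat.card ↥(W ⊓ Subgroup.centralizer (E : Set X)) :=
        Nat.mul_le_mul_right _ h1
    _ = Nat.card E1 ^ 2 *
        (Nat.card V' * Nat.card ↥(W ⊓ Subgroup.centralizer (E : Set X))) := by ring
    _ ≤ Nat.card E1 ^ 2 * (Nat.card ↥(W ⊓ Subgroup.centralizer (E1 : Set X)) *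
        Nat.card ↥(V' ⊓ Subgroup.centralizer (E : Set X))) := Nat.mul_le_mul_left _ h4
    _ = Nat.card ↥(V' ⊓ Subgroup.centralizer (E : Set X)) *
        (Nat.card E1 ^ 2 * Nat.card ↥(W ⊓ Subgroup.centralizer (E1 : Set X))) := by ring
    _ ≤ _ := Nat.mul_le_mul_left _ h2

end CfsgLib.SolvableSFour
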