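import Mathlib
import Cfsg.Agent.Eq.Def_Solvable
import Cfsg.Agent.Eq.Def_Transfer
import Cfsg.Agent.Coprime.Generation
import Cfsg.Agent.Coprime.Minimal
import Cfsg.Agent.LocalP.Basic
import Cfsg.Agent.LocalP.ThompsonJ
import Cfsg.Agent.CharP.PCore
import Cfsg.Agent.Constrained.Basic
import Cfsg.Agent.PGroup.Normal
import Cfsg.Agent.GlaubermanZJ.SylowNormal
import Cfsg.Agent.Offender.S4Section
import Cfsg.Agent.SolvableSFour.AmalgamBase

/-!
The configuration behind the uniqueness theorem for solvable groups of characteristic two without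
sections of the symmetric group of degree four: there is no minimal counterexample to the normality
of `V`, when `V` satisfies the square bound and `N(J(S)) ≤ N(V)`.
-/

set_option autoImplicit false

namespace CfsgLib.SolvableSFour

open Cfsg
open scoped commutatorElement

variable {X : Type*} [Group X] [Finite X]

theorem mem_normalizer_of_forall {M : Subgroup X} {g : X} (h : ∀ m ∈ M, g * m * g⁻¹ ∈ M) :
    g ∈ Subgroup.normalizer (M : Set X) := by
  refine Subgroup.mem_normalizer_iff_map_conj_eq.2 (Subgroup.eq_of_le_of_card_ge ?_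
    (Subgroup.card_map_of_injective (MulAut.conj g).injective).ge)
  rintro _ ⟨m, hm, rfl⟩
  exact h m hm

omit [Finite X] in
theorem le_normalizer_sup {H L T : Subgroup X} [L.Normal]
    (hT : ∀ a ∈ H, ∀ x ∈ T, a * x * a⁻¹ ∈ T) :
    H ≤ Subgroup.normalizer ((L ⊔ T : Subgroup X) : Set X) :=
  CfsgLib.Coprime.le_normalizer_of_conj_mem fun a ha d hd => by
    obtain ⟨l, hl, c, hc, rfl⟩ := Subgroup.mem_sup_of_normal_left.1 hd
    rw [show a * (l * c) * a⁻¹ = a * l * a⁻¹ * (a * c * a⁻¹) by group]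
    exact Subgroup.mul_mem_sup ((inferInstance : L.Normal).conj_mem l hl a) (hT a ha c hc)

/-- The elements centralising `B` modulo `O₂(X)`. -/
def modCent (B : Subgroup X) : Subgroup X :=
  (Subgroup.centralizer ((B.map (QuotientGroup.mk' (pCore 2 X)) : Subgroup (X ⧸ pCore 2 X)) :
    Set (X ⧸ pCore 2 X))).comap (QuotientGroup.mk' (pCore 2 X))

theorem mem_modCent {B : Subgroup X} {g : X} :
    g ∈ modCent B ↔ ∀ b ∈ B, b * g * b⁻¹ * g⁻¹ ∈ pCore 2 X := by
  rw [modCent, Subgroup.mem_comap, Subgroup.mem_centralizer_iff]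
  constructor
  · intro h b hb
    refine (QuotientGroup.eq_one_iff _).1 (show QuotientGroup.mk' (pCore 2 X) _ = 1 from ?_)
    rw [map_mul, map_mul, map_mul, map_inv, map_inv, h _ ⟨b, hb, rfl⟩, mul_inv_cancel_right,
      mul_inv_cancel]
  · rintro h _ ⟨b, hb, rfl⟩
    have h1 : QuotientGroup.mk' (pCore 2 X) (b * g * b⁻¹ * g⁻¹) = 1 :=
      (QuotientGroup.eq_one_iff _).2 (h b hb)
    simp only [map_mul, map_inv] at h1
    calc _ = (QuotientGroup.mk' (pCore 2 X) b * QuotientGroup.mk' (pCore 2 X) g *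
          (QuotientGroup.mk' (pCore 2 X) b)⁻¹ * (QuotientGroup.mk' (pCore 2 X) g)⁻¹) *
          (QuotientGroup.mk' (pCore 2 X) g * QuotientGroup.mk' (pCore 2 X) b) := by group
      _ = _ := by rw [h1, one_mul]

/-- A minimal counterexample. -/
structure Config (S : Sylow 2 X) (V : Subgroup X) : Prop where
  hS4 : ¬ Cfsg.Involves (Equiv.Perm (Fin 4)) X
  self : Subgroup.centralizer ((pCore 2 X : Subgroup X) : Set X) ≤ pCore 2 X
  hVS : V ≤ S
  hV : Elem V
  hJV : ∀ j ∈ thompsonSubgroupOf 2 (S : Subgroup X), ∀ v ∈ V, j * v = v * j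
  hSN : (S : Subgroup X) ≤ Subgroup.normalizer (V : Set X)
  hJN : Subgroup.normalizer (thompsonSubgroupOf 2 (S : Subgroup X) : Set X) ≤
    Subgroup.normalizer (V : Set X)
  hb : SqBound (S : Subgroup X) V
  hN : Subgroup.normalizer (V : Set X) ≠ ⊤
  hover : ∀ H : Subgroup X, (S : Subgroup X) ≤ H → H ≠ ⊤ → H ≤ Subgroup.normalizer (V : Set X)

namespace Config

variable {S : Sylow 2 X} {V : Subgroup X}

theorem core_le_sylow : pCore 2 X ≤ (S : Subgroup X) :=
  haveI : Fact (Nat.Prime 2) := ⟨Nat.prime_two⟩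
  CfsgLib.CharP.pCore_le_sylow S

theorem conj_core_mem {q g : X} (hq : q ∈ pCore 2 X) : g * q * g⁻¹ ∈ pCore 2 X :=
  (inferInstance : (pCore 2 X).Normal).conj_mem q hq g

theorem core_conj_mem_sylow {q g : X} (hq : q ∈ pCore 2 X) : g⁻¹ * q * g ∈ (S : Subgroup X) := by
  have := conj_core_mem (g := g⁻¹) hq
  rw [inv_inv] at this
  exact core_le_sylow this

theorem conj_mem_sylow {B : Subgroup X} (hBS : B ≤ (S : Subgroup X)) {c b : X}
    (hc : c ∈ modCent B) (hb : b ∈ B) : c * b * c⁻¹ ∈ (S : Subgroup X) := by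
  have h1 := core_le_sylow (S := S) (inv_mem (mem_modCent.1 hc b hb))
  have h2 := mul_mem h1 (hBS hb)
  simpa [mul_assoc] using h2

theorem conj_inv_mem_sylow {B : Subgroup X} (hBS : B ≤ (S : Subgroup X)) {c b : X}
    (hc : c ∈ modCent B) (hb : b ∈ B) : c⁻¹ * b * c ∈ (S : Subgroup X) := by
  simpa using conj_mem_sylow hBS (inv_mem hc) hb

/-- A normal subgroup inside `N(V)` meets `S` in `O₂(X)`. -/
theorem inter_le_core (h : Config S V) (D : Subgroup X) [D.Normal]
    (hD : D ≤ Subgroup.normalizer (V : Set X)) : (S : Subgroup X) ⊓ D ≤ pCore 2 X := by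
  haveI : Fact (Nat.Prime 2) := ⟨Nat.prime_two⟩
  have htop : Subgroup.normalizer (((S : Subgroup X) ⊓ D : Subgroup X) : Set X) = ⊤ := by
    by_contra hne
    apply h.hN
    rw [eq_top_iff, ← CfsgLib.GlaubermanZJ.normalizer_inf_sup_eq_top S D]
    refine sup_le (h.hover _ ?_ hne) hD
    exact CfsgLib.Coprime.le_normalizer_of_conj_mem fun s hs x hx =>
      Subgroup.mem_inf.2
        ⟨mul_mem (mul_mem hs hx.1) (inv_mem hs), (inferInstance : D.Normal).conj_mem x hx.2 s⟩
  exact CfsgLib.Constrained.le_pCore (Subgroup.normalizer_eq_top_iff.1 htop)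
    (S.isPGroup'.to_le inf_le_left)

/-- The layer above `O₂(X)`. -/
theorem exists_layer [Group.IsSolvable X] (h : Config S V) :
    ∃ K L0 : Subgroup X, K.Normal ∧ L0.Normal ∧ pCore 2 X ≤ L0 ∧ L0 ≤ K ∧
      (∀ k ∈ K, k ∈ Subgroup.normalizer (V : Set X) → k ∈ L0) ∧
      (∀ k ∈ K, (∃ i : ℕ, k ^ 2 ^ i = 1) → k ∈ pCore 2 X) ∧
      Odd ((pCore 2 X).relIndex K) ∧
      ∀ s ∈ (S : Subgroup X), (∀ k ∈ K, k * s * k⁻¹ * s⁻¹ ∈ L0) → s ∈ pCore 2 X := by
  classical
  haveI : Fact (Nat.Prime 2) := ⟨Nat.prime_two⟩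
  set Q := pCore 2 X with hQ
  set N := Subgroup.normalizer (V : Set X) with hN
  have hQN : Q ≤ N := core_le_sylow.trans h.hSN
  obtain ⟨K, ⟨hKn, hQK, hKN⟩, hmin⟩ :=
    wellFounded_lt.has_min {K : Subgroup X | K.Normal ∧ Q ≤ K ∧ ¬ K ≤ N}
      ⟨⊤, inferInstance, le_top, fun h' => h.hN (top_le_iff.1 h')⟩
  haveI := hKn
  set L0 := N.normalCore ⊓ K with hL0
  have hQL0 : Q ≤ L0 := le_inf (Subgroup.normal_le_normalCore.2 hQN) hQK
  have hL0N : L0 ≤ N := inf_le_left.trans (Subgroup.normalCore_le N)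
  haveI : L0.Normal := inferInstance
  have hKK : ⁅K, K⁆ ≤ L0 := by
    by_cases hle : ⁅K, K⁆ ⊔ Q ≤ N
    · exact le_inf (Subgroup.normal_le_normalCore.2 (le_sup_left.trans hle))
        (Subgroup.commutator_le_self K)
    · exfalso
      have heq : ⁅K, K⁆ ⊔ Q = K := by
        refine le_antisymm (sup_le (Subgroup.commutator_le_self K) hQK) ?_
        by_contra hlt
        exact hmin (⁅K, K⁆ ⊔ Q) ⟨inferInstance, le_sup_right, hle⟩
          (lt_of_le_not_ge (sup_le (Subgroup.commutator_le_self K) hQK) hlt)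
      set f := QuotientGroup.mk' Q
      have hperf : ⁅K.map f, K.map f⁆ = K.map f := by
        conv_rhs => rw [← heq]
        rw [Subgroup.map_sup, Subgroup.map_commutator,
          (Subgroup.map_eq_bot_iff Q).2 (by rw [QuotientGroup.ker_mk']), sup_bot_eq]
      have hbot : K.map f = ⊥ := by
        by_contra hne
        exact (CfsgLib.Coprime.commutator_self_lt inferInstance hne).ne hperf
      rw [Subgroup.map_eq_bot_iff, QuotientGroup.ker_mk'] at hbot
      exact hKN (hbot.trans hQN)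
  have hKS : K ⊔ (S : Subgroup X) = ⊤ := by
    by_contra hne
    exact hKN (le_sup_left.trans (h.hover _ le_sup_right hne))
  have normal_of : ∀ D : Subgroup X, K ≤ Subgroup.normalizer (D : Set X) →
      (S : Subgroup X) ≤ Subgroup.normalizer (D : Set X) → D.Normal := fun D h1 h2 =>
    Subgroup.normalizer_eq_top_iff.1 (top_le_iff.1 (hKS ▸ sup_le h1 h2))
  have hbetween : ∀ D : Subgroup X, ⁅K, K⁆ ≤ D → D ≤ K → K ≤ Subgroup.normalizer (D : Set X) :=
    fun D h1 h2 => CfsgLib.Coprime.le_normalizer_of_conj_mem fun k hk d hd => by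
      have := mul_mem (h1 (Subgroup.commutator_mem_commutator hk (h2 hd))) hd
      simpa [commutatorElement_def, mul_assoc] using this
  have hSK : (S : Subgroup X) ⊓ K ≤ Q := by
    set D := L0 ⊔ ((S : Subgroup X) ⊓ K) with hD
    haveI : D.Normal := by
      refine normal_of D (hbetween D (hKK.trans le_sup_left) (sup_le inf_le_right inf_le_right)) ?_
      exact le_normalizer_sup fun s hs x hx => Subgroup.mem_inf.2
        ⟨mul_mem (mul_mem hs hx.1) (inv_mem hs), hKn.conj_mem x hx.2 s⟩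
    exact (le_inf inf_le_left le_sup_right).trans
      (inter_le_core h D (sup_le hL0N (inf_le_left.trans h.hSN)))
  have htwo : ∀ k ∈ K, (∃ i : ℕ, k ^ 2 ^ i = 1) → k ∈ Q := by
    rintro k hk ⟨i, hi⟩
    have hp : IsPGroup 2 (Subgroup.zpowers k) := by
      refine fun x => ⟨i, ?_⟩
      obtain ⟨_, j, rfl⟩ := x
      refine Subtype.ext (show (k ^ j) ^ 2 ^ i = 1 from ?_)
      rw [← zpow_natCast, ← zpow_mul, mul_comm, zpow_mul, zpow_natCast, hi, one_zpow]
    obtain ⟨P, hP⟩ := hp.exists_le_sylow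
    obtain ⟨g, rfl⟩ := MulAction.exists_smul_eq X S P
    have hkP := hP (Subgroup.mem_zpowers k)
    rw [Sylow.coe_subgroup_smul] at hkP
    obtain ⟨s, hs, hsk⟩ := hkP
    have hsk' : g * s * g⁻¹ = k := hsk
    have hsK : s ∈ K := by
      have := hKn.conj_mem k hk g⁻¹
      rw [← hsk'] at this
      simpa [mul_assoc] using this
    rw [← hsk']
    exact conj_core_mem (hSK ⟨hs, hsK⟩)
  have hodd : Odd (Q.relIndex K) := by
    obtain ⟨P⟩ : Nonempty (Sylow 2 K) := inferInstance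
    have hPQ : (P : Subgroup K) ≤ Q.subgroupOf K := by
      intro x hx
      obtain ⟨i, hi⟩ := P.isPGroup' ⟨x, hx⟩
      exact htwo x x.2 ⟨i, by simpa [Subtype.ext_iff] using hi⟩
    refine Nat.odd_iff.2 (Nat.two_dvd_ne_zero.1 fun h2 => P.not_dvd_index ?_)
    exact h2.trans (Subgroup.index_dvd_of_le hPQ)
  have hKL : ∀ k ∈ K, k ∈ N → k ∈ L0 := by
    haveI : (K ⊓ N).Normal := by
      refine normal_of _ (hbetween _ (le_inf (Subgroup.commutator_le_self K) (hKK.trans hL0N))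
        inf_le_left) (CfsgLib.Coprime.le_normalizer_of_conj_mem fun s hs x hx =>
          Subgroup.mem_inf.2 ⟨hKn.conj_mem x hx.1 s, mul_mem (mul_mem (h.hSN hs) hx.2) (inv_mem (h.hSN hs))⟩)
    exact fun k hk hkN => ⟨(Subgroup.normal_le_normalCore.2 inf_le_right : K ⊓ N ≤ N.normalCore)
      ⟨hk, hkN⟩, hk⟩
  refine ⟨K, L0, hKn, inferInstance, hQL0, inf_le_right, hKL, htwo, hodd, fun s hs hsK => ?_⟩
  set π0 := QuotientGroup.mk' L0 with hπ0
  haveI : (K.map π0).Normal := Subgroup.Normal.map hKn π0 (QuotientGroup.mk'_surjective _)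
  set C0 := (Subgroup.centralizer ((K.map π0 : Subgroup (X ⧸ L0)) : Set (X ⧸ L0))).comap π0
    with hC0
  haveI : C0.Normal := by rw [hC0]; infer_instance
  have hmemC0 : ∀ {c : X}, c ∈ C0 ↔ ∀ k ∈ K, k * c * k⁻¹ * c⁻¹ ∈ L0 := by
    intro c
    rw [hC0, Subgroup.mem_comap, Subgroup.mem_centralizer_iff]
    constructor
    · intro hc k hk
      refine (QuotientGroup.eq_one_iff _).1 (show π0 _ = 1 from ?_)
      rw [map_mul, map_mul, map_mul, map_inv, map_inv, hc _ ⟨k, hk, rfl⟩, mul_inv_cancel_right,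
        mul_inv_cancel]
    · rintro hc _ ⟨k, hk, rfl⟩
      have h1 : π0 (k * c * k⁻¹ * c⁻¹) = 1 := (QuotientGroup.eq_one_iff _).2 (hc k hk)
      simp only [map_mul, map_inv] at h1
      calc π0 k * π0 c = (π0 k * π0 c * (π0 k)⁻¹ * (π0 c)⁻¹) * (π0 c * π0 k) := by group
        _ = π0 c * π0 k := by rw [h1, one_mul]
  set T0 := (S : Subgroup X) ⊓ C0 with hT0
  haveI : (L0 ⊔ T0).Normal := by
    refine normal_of _ (CfsgLib.Coprime.le_normalizer_of_conj_mem fun k hk d hd => ?_) ?_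
    · obtain ⟨l, hl, c, hc, rfl⟩ := Subgroup.mem_sup_of_normal_left.1 hd
      rw [show k * (l * c) * k⁻¹ = k * l * k⁻¹ * (k * c * k⁻¹ * c⁻¹) * c by group]
      exact mul_mem (Subgroup.mem_sup_left (mul_mem
        ((inferInstance : L0.Normal).conj_mem l hl k) (hmemC0.1 hc.2 k hk))) (Subgroup.mem_sup_right hc)
    · exact le_normalizer_sup fun s hs x hx => Subgroup.mem_inf.2
        ⟨mul_mem (mul_mem hs hx.1) (inv_mem hs), (inferInstance : C0.Normal).conj_mem x hx.2 s⟩
  exact inter_le_core h (L0 ⊔ T0) (sup_le hL0N (inf_le_left.trans h.hSN))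
    ⟨hs, Subgroup.mem_sup_right ⟨hs, hmemC0.2 hsK⟩⟩

/-- Generation: an elementary subgroup of `S` lies in `O₂(X)` as soon as the inverted elements of
odd order attached to its hyperplanes normalise `V`. -/
theorem gen [Group.IsSolvable X] (h : Config S V) (A : Subgroup X) (hAS : A ≤ (S : Subgroup X))
    (hA : Elem A)
    (hx : ∀ (B : Subgroup X) (t k x : X), B ≤ A → t ∈ A → A ⊓ pCore 2 X ≤ B →
      B ⊔ Subgroup.zpowers t = A → k ∈ modCent B → t ∈ modCent B → x ∈ modCent B →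
      t * x * t⁻¹ = x⁻¹ → Odd (orderOf x) →
      (∀ w : X, Commute t w → Commute (k * t * k⁻¹) w → Commute x w) →
      x ∈ Subgroup.normalizer (V : Set X)) : A ≤ pCore 2 X := by
  classical
  haveI : Fact (Nat.Prime 2) := ⟨Nat.prime_two⟩
  obtain ⟨K, L0, hKn, hL0n, hQL0, hL0K, hKL, htwo, hodd, hT0⟩ := exists_layer h
  set Q := pCore 2 X with hQ
  haveI := hKn
  haveI := hL0n
  set π := QuotientGroup.mk' Q with hπ
  set π0 := QuotientGroup.mk' L0 with hπ0
  set C' := (Subgroup.centralizer ((A.map π0 : Subgroup (X ⧸ L0)) : Set (X ⧸ L0))).comap π0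
    with hC'
  have hQC' : Q ≤ C' := by
    intro q hq
    refine Subgroup.mem_comap.2 (Subgroup.mem_centralizer_iff.2 fun z _ => ?_)
    rw [show π0 q = 1 from (QuotientGroup.eq_one_iff _).2 (hQL0 hq), one_mul, mul_one]
  have hAel : Elem (A.map π) := hA.map π
  have hKC : K.map π ≤ C'.map π := by
    refine CfsgLib.Coprime.le_of_cocyclic (A := A.map π)
      ⟨⟨fun a b => Subtype.ext (hAel.comm a a.2 b b.2)⟩⟩ ?_ ?_ ?_
    · haveI : (K.map π).Normal := Subgroup.Normal.map hKn π (QuotientGroup.mk'_surjective _)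
      rw [Subgroup.normalizer_eq_top]
      exact le_top
    · obtain ⟨i, hi⟩ := IsPGroup.iff_card.1 hAel.isPGroup
      rw [hi, ← Subgroup.relIndex_ker, hπ, QuotientGroup.ker_mk']
      exact (Nat.coprime_two_left.2 hodd).pow_left i
    rintro B' hB'A ⟨a', ha', hsup'⟩ y ⟨⟨k, hk, rfl⟩, hyB⟩
    obtain ⟨t, htA, rfl⟩ := ha'
    set B := A ⊓ B'.comap π with hB
    have hBA : B ≤ A := inf_le_left
    have hAQB : A ⊓ Q ≤ B := fun z hz => Subgroup.mem_inf.2 ⟨hz.1, Subgroup.mem_comap.2 (by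
      rw [show π z = 1 from (QuotientGroup.eq_one_iff _).2 hz.2]; exact one_mem _)⟩
    have hsupB : B ⊔ Subgroup.zpowers t = A := by
      refine le_antisymm (sup_le hBA (Subgroup.zpowers_le.2 htA)) fun c hc => ?_
      have hz : Subgroup.zpowers (π t) ≤ Subgroup.normalizer (B' : Set (X ⧸ Q)) := by
        refine Subgroup.zpowers_le.2 (Subgroup.centralizer_le_normalizer _ ?_)
        exact Subgroup.mem_centralizer_iff.2 fun b hb =>
          hAel.comm b (hB'A hb) _ ⟨t, htA, rfl⟩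
      have hc' : π c ∈ ((B' ⊔ Subgroup.zpowers (π t) : Subgroup (X ⧸ Q)) : Set (X ⧸ Q)) := by
        rw [hsup']; exact ⟨c, hc, rfl⟩
      rw [Subgroup.coe_mul_of_right_le_normalizer_left B' (Subgroup.zpowers (π t)) hz] at hc'
      obtain ⟨b, hb, _, ⟨i, rfl⟩, hbc⟩ := hc'
      have hmem : c * (t ^ i)⁻¹ ∈ B := by
        refine Subgroup.mem_inf.2 ⟨mul_mem hc (inv_mem (zpow_mem htA i)), Subgroup.mem_comap.2 ?_⟩
        rw [map_mul, map_inv, map_zpow, ← hbc]
        simpa using hb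
      have := mul_mem (Subgroup.mem_sup_left (T := Subgroup.zpowers t) hmem)
        (Subgroup.mem_sup_right (S := B) (zpow_mem (Subgroup.mem_zpowers t) i))
      simpa using this
    have hkB : k ∈ modCent B := Subgroup.mem_comap.2
      (Subgroup.centralizer_le (by rintro _ ⟨b, hb, rfl⟩; exact hb.2) hyB)
    have htB : t ∈ modCent B := mem_modCent.2 fun b hb => by
      rw [hA.comm b (hBA hb) t htA, mul_inv_cancel_right, mul_inv_cancel]
      exact one_mem _
    have hti : t⁻¹ = t := hA.inv_eq htA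
    set u := t * k * t⁻¹ * k⁻¹ with hu
    have huK : u ∈ K := mul_mem (hKn.conj_mem k hk t) (inv_mem hk)
    have huB : u ∈ modCent B := mul_mem (mul_mem (mul_mem htB hkB) (inv_mem htB)) (inv_mem hkB)
    have htu : t * u * t⁻¹ = u⁻¹ := by
      rw [hu, show (t * k * t⁻¹ * k⁻¹)⁻¹ = k * t * k⁻¹ * t⁻¹ by group, hti]
      calc t * (t * k * t * k⁻¹) * t = (t * t) * (k * t * k⁻¹ * t) := by group
        _ = k * t * k⁻¹ * t := by rw [hA.sq t htA, one_mul]
    obtain ⟨i, m, hm2, hum⟩ := Nat.exists_eq_pow_mul_and_not_dvd (orderOf_pos u).ne' 2 (by norm_num)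
    have hmodd : Odd m := Nat.odd_iff.2 (Nat.two_dvd_ne_zero.1 hm2)
    set x := u ^ 2 ^ i with hxdef
    have hxN : x ∈ Subgroup.normalizer (V : Set X) := by
      refine hx B t k x hBA htA hAQB hsupB hkB htB (pow_mem huB _)
        (by rw [hxdef, ← conj_pow, htu, inv_pow])
        (hmodd.of_dvd_nat (orderOf_dvd_of_pow_eq_one ?_)) fun w h1 h2 => ?_
      · rw [hxdef, ← pow_mul, ← hum, pow_orderOf_eq_one]
      · refine Commute.pow_left ?_ _
        have h3 : u = t * (k * t * k⁻¹)⁻¹ := by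
          rw [hu, mul_inv_rev, mul_inv_rev, inv_inv]; group
        rw [h3]
        exact h1.mul_left h2.inv_left
    have hu2N : u ^ m ∈ Subgroup.normalizer (V : Set X) :=
      h.hSN (core_le_sylow (htwo _ (pow_mem huK m) ⟨i, by
        rw [← pow_mul, mul_comm, ← hum, pow_orderOf_eq_one]⟩))
    have huN : u ∈ Subgroup.normalizer (V : Set X) := by
      have hbez := Nat.gcd_eq_gcd_ab (2 ^ i) m
      rw [((Nat.coprime_two_left.2 hmodd).pow_left i).gcd_eq_one] at hbez
      have : u = x ^ (Nat.gcdA (2 ^ i) m) * (u ^ m) ^ (Nat.gcdB (2 ^ i) m) := by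
        rw [hxdef, ← zpow_natCast u (2 ^ i), ← zpow_natCast u m, ← zpow_mul, ← zpow_mul,
          ← zpow_add, ← hbez, Nat.cast_one, zpow_one]
      rw [this]
      exact mul_mem (zpow_mem hxN _) (zpow_mem hu2N _)
    have huL : π0 u = 1 := (QuotientGroup.eq_one_iff _).2 (hKL u huK huN)
    refine ⟨k, Subgroup.mem_comap.2 (Subgroup.mem_centralizer_iff.2 ?_), rfl⟩
    rintro _ ⟨a, ha, rfl⟩
    have hle : A ≤ (Subgroup.centralizer ({π0 k} : Set (X ⧸ L0))).comap π0 := by
      rw [← hsupB]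
      refine sup_le (fun b hb => ?_) (Subgroup.zpowers_le.2 ?_)
      · refine Subgroup.mem_comap.2 (Subgroup.mem_centralizer_singleton_iff.2 ?_)
        have h1 : π0 (b * k * b⁻¹ * k⁻¹) = 1 :=
          (QuotientGroup.eq_one_iff _).2 (hQL0 (mem_modCent.1 hkB b hb))
        simp only [map_mul, map_inv] at h1
        calc π0 b * π0 k = (π0 b * π0 k * (π0 b)⁻¹ * (π0 k)⁻¹) * (π0 k * π0 b) := by group
          _ = π0 k * π0 b := by rw [h1, one_mul]
      · refine Subgroup.mem_comap.2 (Subgroup.mem_centralizer_singleton_iff.2 ?_)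
        rw [hu] at huL
        simp only [map_mul, map_inv] at huL
        calc π0 t * π0 k = (π0 t * π0 k * (π0 t)⁻¹ * (π0 k)⁻¹) * (π0 k * π0 t) := by group
          _ = π0 k * π0 t := by rw [huL, one_mul]
    exact Subgroup.mem_centralizer_singleton_iff.1 (Subgroup.mem_comap.1 (hle ha))
  have hKC' : K ≤ C' := by
    have h2 := Subgroup.map_le_iff_le_comap.1 hKC
    rwa [Subgroup.comap_map_eq, hπ, QuotientGroup.ker_mk', sup_eq_left.2 hQC'] at h2
  intro a ha
  refine hT0 a (hAS ha) fun k hk => (QuotientGroup.eq_one_iff _).1 (show π0 _ = 1 from ?_)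
  rw [map_mul, map_mul, map_mul, map_inv, map_inv,
    ← Subgroup.mem_centralizer_iff.1 (Subgroup.mem_comap.1 (hKC' hk)) _ ⟨a, ha, rfl⟩,
    mul_inv_cancel_right, mul_inv_cancel]

/-- First step: `V ≤ O₂(X)`. -/
theorem le_core [Group.IsSolvable X] (h : Config S V) : V ≤ pCore 2 X := by
  classical
  haveI : Fact (Nat.Prime 2) := ⟨Nat.prime_two⟩
  set Q := pCore 2 X with hQ
  refine gen h V h.hVS h.hV fun B t k x hBV htV hVQB hsup hkB htB _ hinv hodd hxcomm => ?_
  have hBel := h.hV.mono hBV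
  set cj := (MulAut.conj k).toMonoidHom with hcj
  set E := B.map cj with hE
  set V' := V.map cj with hV'
  have hEel : Elem E := hBel.map cj
  have hV'el : Elem V' := h.hV.map cj
  have hEV' : E ≤ V' := Subgroup.map_mono hBV
  have hcardE : Nat.card E = Nat.card B := Subgroup.card_map_of_injective (MulAut.conj k).injective
  have hcardV : Nat.card V' = Nat.card V := Subgroup.card_map_of_injective (MulAut.conj k).injective
  have hb1 := h.hb.elem (E := E) (by
    rintro _ ⟨b, hb, rfl⟩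
    exact conj_mem_sylow (hBV.trans h.hVS) hkB hb) hEel
  have hb2 := h.hb.conj_elem k hBel fun b hb => conj_inv_mem_sylow (hBV.trans h.hVS) hkB hb
  rw [← hV', hcardV] at hb2
  rw [hcardE] at hb1
  set β := Nat.card B
  set γ := Nat.card ↥(E ⊓ Subgroup.centralizer (V : Set X))
  set γ' := Nat.card ↥(B ⊓ Subgroup.centralizer (V' : Set X))
  have h1 : γ' ≤ Nat.card ↥(V ⊓ Subgroup.centralizer (E : Set X)) :=
    Subgroup.card_le_of_le (inf_le_inf hBV (Subgroup.centralizer_le hEV'))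
  have h2 : γ ≤ Nat.card ↥(V' ⊓ Subgroup.centralizer (B : Set X)) :=
    Subgroup.card_le_of_le (inf_le_inf hEV' (Subgroup.centralizer_le hBV))
  have hV2 : Nat.card V ≤ 2 * β := card_le_two_mul h.hV htV hBV hsup
  have hβ : 0 < β := Nat.card_pos
  have e1 : β * γ' ≤ 2 * γ ^ 2 := by
    refine Nat.le_of_mul_le_mul_left ?_ hβ
    calc β * (β * γ') = β ^ 2 * γ' := by ring
      _ ≤ β ^ 2 * Nat.card ↥(V ⊓ Subgroup.centralizer (E : Set X)) := Nat.mul_le_mul_left _ h1
      _ ≤ Nat.card V * γ ^ 2 := hb1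
      _ ≤ 2 * β * γ ^ 2 := Nat.mul_le_mul_right _ hV2
      _ = β * (2 * γ ^ 2) := by ring
  have e2 : β * γ ≤ 2 * γ' ^ 2 := by
    refine Nat.le_of_mul_le_mul_left ?_ hβ
    calc β * (β * γ) = β ^ 2 * γ := by ring
      _ ≤ β ^ 2 * Nat.card ↥(V' ⊓ Subgroup.centralizer (B : Set X)) := Nat.mul_le_mul_left _ h2
      _ ≤ Nat.card V * γ' ^ 2 := hb2
      _ ≤ 2 * β * γ' ^ 2 := Nat.mul_le_mul_right _ hV2
      _ = β * (2 * γ' ^ 2) := by ring
  have hhalf : β ≤ 2 * γ' := by
    refine (Nat.pow_le_pow_iff_left (by norm_num : (3 : ℕ) ≠ 0)).1 ?_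
    have hpos : 0 < γ' * γ ^ 2 := Nat.mul_pos Nat.card_pos (pow_pos Nat.card_pos 2)
    refine Nat.le_of_mul_le_mul_left ?_ hpos
    calc γ' * γ ^ 2 * β ^ 3 = β * γ' * (β * γ) ^ 2 := by ring
      _ ≤ 2 * γ ^ 2 * (2 * γ' ^ 2) ^ 2 := Nat.mul_le_mul e1 (Nat.pow_le_pow_left e2 2)
      _ = γ' * γ ^ 2 * (2 * γ') ^ 3 := by ring
  -- the elements of `B` centralising `V'` are fixed by `x`
  have hfixB : ∀ v ∈ B, v ∈ Subgroup.centralizer (V' : Set X) → Commute x v := fun v hv hvc =>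
    hxcomm v (h.hV.comm t htV v (hBV hv)) (Subgroup.mem_centralizer_iff.1 hvc _ ⟨t, htV, rfl⟩)
  have hpairs : ∀ v ∈ B, ∀ w ∈ B, ¬ Commute x v → ¬ Commute x w → Commute x (v * w) := by
    intro v hv w hw hxv hxw
    have := mul_mem_of_card_le (H := B ⊓ Subgroup.centralizer (V' : Set X)) inf_le_left hhalf hv hw
      (fun h' => hxv (hfixB v hv h'.2)) (fun h' => hxw (hfixB w hw h'.2))
    exact hfixB _ this.1 this.2
  -- the action on the Frattini quotient of `O₂`
  set F := (frattini ↥Q).map Q.subtype with hF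
  haveI : (frattini ↥Q).Characteristic := frattini_characteristic
  haveI : F.Normal := by rw [hF]; infer_instance
  have hQp : IsPGroup 2 Q := CfsgLib.Constrained.isPGroup_pCore
  set π := QuotientGroup.mk' F with hπ
  have hS4' : ¬ Cfsg.Involves (Equiv.Perm (Fin 4)) (X ⧸ F) := fun h' =>
    h.hS4 (CfsgLib.Offender.involves_of_quotient F h')
  set M := Q.map π with hM
  haveI : M.Normal := Subgroup.Normal.map inferInstance π (QuotientGroup.mk'_surjective _)
  have hMel : Elem M := by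
    refine ⟨?_, ?_⟩
    · rintro _ ⟨a, ha, rfl⟩ _ ⟨b, hb, rfl⟩
      have h3 : π ⁅a, b⁆ = 1 := (QuotientGroup.eq_one_iff _).2
        (CfsgLib.Coprime.commutator_le_frattini_map hQp (Subgroup.commutator_mem_commutator ha hb))
      rw [map_commutatorElement, commutatorElement_eq_one_iff_mul_comm] at h3
      exact h3
    · rintro _ ⟨a, ha, rfl⟩
      rw [← map_mul, ← sq]
      exact (QuotientGroup.eq_one_iff _).2 (CfsgLib.Coprime.pow_mem_frattini_map hQp ha)
  have hnormM : ∀ z : X ⧸ F, z ∈ Subgroup.normalizer (M : Set (X ⧸ F)) := fun z => by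
    rw [Subgroup.normalizer_eq_top]; trivial
  have he2 : π t * π t ∈ Subgroup.centralizer (M : Set (X ⧸ F)) := by
    rw [← map_mul, h.hV.sq t htV, map_one]; exact one_mem _
  have hinv' : π t * π x * (π t)⁻¹ * π x ∈ Subgroup.centralizer (M : Set (X ⧸ F)) := by
    rw [← map_inv, ← map_mul, ← map_mul, hinv, ← map_mul, inv_mul_cancel, map_one]; exact one_mem _
  have hn : (π x) ^ orderOf x ∈ Subgroup.centralizer (M : Set (X ⧸ F)) := by
    rw [← map_pow, pow_orderOf_eq_one, map_one]; exact one_mem _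
  set D := commSub M (π x) with hD
  have hDM : D ≤ M := commSub_le (hnormM _)
  have heD : ∀ w ∈ D, π t * w * (π t)⁻¹ ∈ D := fun w hw =>
    commSub_conj_mem_of_inv hMel (hnormM _) (hnormM _) hinv' hw
  have hP : ∀ w ∈ D, ∃ v ∈ B, π v = w * (π t * w * (π t)⁻¹) := by
    intro w hw
    obtain ⟨q, hq, rfl⟩ := hDM hw
    refine ⟨q⁻¹ * (t * q * t⁻¹), hVQB (Subgroup.mem_inf.2 ⟨?_, mul_mem (inv_mem hq) (conj_core_mem hq)⟩), ?_⟩
    · have h3 : q⁻¹ * t * q ∈ V :=
        (Subgroup.mem_normalizer_iff''.1 (h.hSN (core_le_sylow hq)) t).1 htV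
      simpa [mul_assoc] using mul_mem h3 (inv_mem htV)
    · rw [← map_inv π t, ← map_mul, ← map_mul, ← map_mul]
      refine (QuotientGroup.eq).2 ?_
      rw [show (q⁻¹ * (t * q * t⁻¹))⁻¹ * (q * (t * q * t⁻¹)) =
        (t * q * t⁻¹)⁻¹ * (q * q) * (t * q * t⁻¹) by group, ← sq]
      simpa using (inferInstance : F.Normal).conj_mem _
        (CfsgLib.Coprime.pow_mem_frattini_map hQp hq) (t * q * t⁻¹)⁻¹
  have hfpf := fun {w} => commSub_fpf (w := w) hMel (hnormM (π x)) hodd hn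
  have hidx : ∀ a ∈ D, ∀ b ∈ D, ¬ Commute (π t) a → ¬ Commute (π t) b → Commute (π t) (a * b) := by
    intro a ha b hb hta htb
    obtain ⟨va, hva, hπa⟩ := hP a ha
    obtain ⟨vb, hvb, hπb⟩ := hP b hb
    have hne : ∀ w ∈ D, ¬ Commute (π t) w → ∀ v, π v = w * (π t * w * (π t)⁻¹) →
        ¬ Commute x v := by
      intro w hw htw v hv hxv
      have h3 : w * (π t * w * (π t)⁻¹) = 1 :=
        hfpf (mul_mem hw (heD w hw)) (hv ▸ hxv.map π)
      exact htw (mul_inv_eq_iff_eq_mul.1 (hMel.eq_of_mul_eq_one (hDM hw) h3))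
    have h3 := hfpf (mul_mem (mul_mem ha (heD a ha)) (mul_mem hb (heD b hb)))
      (by rw [← hπa, ← hπb, ← map_mul]
          exact (hpairs va hva vb hvb (hne a ha hta va hπa) (hne b hb htb vb hπb)).map π)
    refine mul_inv_eq_iff_eq_mul.1 ?_
    rw [hMel.swap4 (hDM (heD a ha)) (hDM hb)] at h3
    have h4 := hMel.eq_of_mul_eq_one (mul_mem (hDM ha) (hDM hb)) h3
    calc π t * (a * b) * (π t)⁻¹ = π t * a * (π t)⁻¹ * (π t * b * (π t)⁻¹) := by group
      _ = a * b := h4
  have hgD : π x ∈ Subgroup.centralizer (D : Set (X ⧸ F)) := by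
    refine index_two_trivial (M := D) (e := π t) hS4' (hMel.mono hDM)
      (mem_normalizer_of_forall fun w hw => commSub_conj_mem hMel (hnormM _) hw)
      (mem_normalizer_of_forall heD) (Subgroup.centralizer_le hDM he2)
      (Subgroup.centralizer_le hDM hinv') hodd (Subgroup.centralizer_le hDM hn) hidx
  have hgM : π x ∈ Subgroup.centralizer (M : Set (X ⧸ F)) := by
    refine Subgroup.mem_centralizer_iff.2 fun m hm => ?_
    have h3 : m * (π x * m * (π x)⁻¹) = 1 :=
      hfpf (mul_conj_mem_commSub hm) (commute_of_mem_centralizer hgD (mul_conj_mem_commSub hm))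
    exact (mul_inv_eq_iff_eq_mul.1 (hMel.eq_of_mul_eq_one hm h3)).symm
  have hQC : Q ≤ Subgroup.centralizer (Subgroup.zpowers x : Set X) := by
    refine CfsgLib.Coprime.le_centralizer_of_frattini
      (by rw [Subgroup.normalizer_eq_top]; exact le_top) ?_ ?_
    · obtain ⟨i, hi⟩ := IsPGroup.iff_card.1 hQp
      rw [hi, Nat.card_zpowers]
      exact ((Nat.coprime_two_left.2 hodd).symm).pow_right i
    · rw [← hF, Subgroup.commutator_le]
      intro q hq a ha
      obtain ⟨j, rfl⟩ := ha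
      refine (QuotientGroup.eq_one_iff _).1 (show π _ = 1 from ?_)
      rw [map_commutatorElement, commutatorElement_eq_one_iff_mul_comm, map_zpow]
      exact Subgroup.mem_centralizer_iff.1 (zpow_mem hgM j) (π q) ⟨q, hq, rfl⟩
  have hxQ : x ∈ Q := h.self (Subgroup.mem_centralizer_iff.2 fun q hq =>
    (Subgroup.mem_centralizer_iff.1 (hQC hq) x (Subgroup.mem_zpowers x)).symm)
  rw [CfsgLib.LocalP.eq_one_of_mem_of_coprime hQp hxQ (Nat.coprime_two_right.2 hodd)]
  exact one_mem _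

/-- Second step: the conjugates of `V` commute. -/
theorem conj_commute [Group.IsSolvable X] (h : Config S V) (g : X) {v w : X} (hv : v ∈ V)
    (hw : w ∈ V) : Commute v (g * w * g⁻¹) := by
  set Q := pCore 2 X with hQ
  have hVQ := le_core h
  set V' := V.map (MulAut.conj g).toMonoidHom with hV'
  have hV'Q : V' ≤ Q := by
    rintro _ ⟨z, hz, rfl⟩
    exact conj_core_mem (hVQ hz)
  have hcard : Nat.card V' = Nat.card V := Subgroup.card_map_of_injective (MulAut.conj g).injective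
  have h1 := h.hb.elem (E := V') (hV'Q.trans core_le_sylow) (h.hV.map _)
  have h2 := h.hb.conj_elem g h.hV fun z hz => core_conj_mem_sylow (hVQ hz)
  rw [← hV', hcard] at h2
  rw [hcard] at h1
  set ν := Nat.card V
  set c1 := Nat.card ↥(V ⊓ Subgroup.centralizer (V' : Set X))
  set c2 := Nat.card ↥(V' ⊓ Subgroup.centralizer (V : Set X))
  have hν : 0 < ν := Nat.card_pos
  have hc1 : c1 ≤ ν := Subgroup.card_le_of_le inf_le_left
  have hc2 : c2 ≤ ν := hcard ▸ Subgroup.card_le_of_le inf_le_left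
  have e1 : ν * c1 ≤ c2 ^ 2 := Nat.le_of_mul_le_mul_left (by
    calc ν * (ν * c1) = ν ^ 2 * c1 := by ring
      _ ≤ ν * c2 ^ 2 := h1) hν
  have e2 : ν * c2 ≤ c1 ^ 2 := Nat.le_of_mul_le_mul_left (by
    calc ν * (ν * c2) = ν ^ 2 * c2 := by ring
      _ ≤ ν * c1 ^ 2 := h2) hν
  have hpos1 : 0 < c1 := Nat.card_pos
  have hpos2 : 0 < c2 := Nat.card_pos
  have e3 : ν * ν ≤ c1 * c2 := Nat.le_of_mul_le_mul_left (by
    calc c1 * c2 * (ν * ν) = ν * c1 * (ν * c2) := by ring
      _ ≤ c2 ^ 2 * c1 ^ 2 := Nat.mul_le_mul e1 e2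
      _ = c1 * c2 * (c1 * c2) := by ring) (Nat.mul_pos hpos1 hpos2)
  have hge : ν ≤ c1 := Nat.le_of_mul_le_mul_right (e3.trans (Nat.mul_le_mul_left _ hc2)) hν
  have heq := Subgroup.eq_of_le_of_card_ge
    (inf_le_left : V ⊓ Subgroup.centralizer (V' : Set X) ≤ V) hge
  exact (Subgroup.mem_centralizer_iff.1 (heq.ge hv).2 _ ⟨w, hw, rfl⟩).symm

/-- The normal closure of `V` is elementary. -/
theorem closure_elem [Group.IsSolvable X] (h : Config S V) :
    Elem (Subgroup.normalClosure (V : Set X)) := by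
  refine elem_closure ?_ ?_
  · intro a ha b hb
    obtain ⟨v, hv, hva⟩ := Group.mem_conjugatesOfSet_iff.1 ha
    obtain ⟨w, hw, hwb⟩ := Group.mem_conjugatesOfSet_iff.1 hb
    obtain ⟨g, rfl⟩ := isConj_iff.1 hva
    obtain ⟨g', rfl⟩ := isConj_iff.1 hwb
    have h1 := (conj_commute h (g⁻¹ * g') hv hw).map (MulAut.conj g).toMonoidHom
    simpa [mul_assoc, Commute, SemiconjBy] using h1
  · intro a ha
    obtain ⟨v, hv, hva⟩ := Group.mem_conjugatesOfSet_iff.1 ha
    obtain ⟨g, rfl⟩ := isConj_iff.1 hva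
    rw [show g * v * g⁻¹ * (g * v * g⁻¹) = g * (v * v) * g⁻¹ by group, h.hV.sq v hv]
    group

end Config

end CfsgLib.SolvableSFour
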