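import Mathlib
import Cfsg.Agent.Eq.Def_Solvable
import Cfsg.Agent.Eq.Def_Transfer
import Cfsg.Agent.PGroup.Normal
import Cfsg.Agent.SolvableSFour.Amalgam

/-!
The two cases for a largest elementary subgroup outside `O₂(X)`: either the conjugates of `V` under
the elements centralising the hyperplane modulo `O₂` commute with the hyperplane, or a conjugate
gives a larger intersection with `O₂`.
-/

set_option autoImplicit false

namespace CfsgLib.SolvableSFour

open Cfsg

variable {X : Type*} [Group X] [Finite X]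

namespace Config

variable {S : Sylow 2 X} {V : Subgroup X}

/-- The commuting case. -/
theorem case_commute [Group.IsSolvable X] (h : Config S V) {A B : Subgroup X}
    (hA : A ∈ CfsgLib.LocalP.maxElemIn 2 (S : Subgroup X)) {t x : X} (hBA : B ≤ A) (htA : t ∈ A)
    (hsup : B ⊔ Subgroup.zpowers t = A) (htB : t ∈ modCent B) (hxB : x ∈ modCent B)
    (hinv : t * x * t⁻¹ = x⁻¹) (hodd : Odd (orderOf x))
    (hcase : ∀ c ∈ modCent B, ∀ b ∈ B, ∀ v ∈ V, Commute b (c * v * c⁻¹)) :
    x ∈ Subgroup.normalizer (V : Set X) := by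
  have hAel := Elem.of_isElementaryAbelian hA.2.1
  set W := Subgroup.normalClosure (V : Set X) with hW
  set W1 := Subgroup.closure {w : X | ∃ c ∈ modCent B, ∃ v ∈ V, c * v * c⁻¹ = w} with hW1
  have hW1W : W1 ≤ W := by
    rw [hW1, Subgroup.closure_le]
    rintro _ ⟨c, -, v, hv, rfl⟩
    exact Subgroup.normalClosure_normal.conj_mem v (Subgroup.subset_normalClosure hv) c
  have hW1el : Elem W1 := (closure_elem h).mono hW1W
  have hBW : ∀ b ∈ B, ∀ w ∈ W1, b * w = w * b := by
    have hle : W1 ≤ Subgroup.centralizer (B : Set X) := by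
      rw [hW1, Subgroup.closure_le]
      rintro _ ⟨c, hc, v, hv, rfl⟩
      exact Subgroup.mem_centralizer_iff.2 fun b hb => (hcase c hc b hb v hv).eq
    exact fun b hb w hw => Subgroup.mem_centralizer_iff.1 (hle hw) b hb
  have hWS : W ≤ (S : Subgroup X) :=
    (Subgroup.normalClosure_le_normal (fun v hv => le_core h hv)).trans core_le_sylow
  have hBW1 : Elem (B ⊔ W1) := elem_sup (hAel.mono hBA) hW1el hBW
  have hcard : Nat.card ↥(B ⊔ W1) ≤ 2 * Nat.card B :=
    (hA.2.2 _ (sup_le (hBA.trans hA.1) (hW1W.trans hWS)) hBW1.isElementaryAbelian).trans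
      (card_le_two_mul hAel htA hBA hsup)
  have hnorm : ∀ g ∈ modCent B, g ∈ Subgroup.normalizer (W1 : Set X) := fun g hg =>
    mem_normalizer_of_forall fun w hw => by
      have hle : W1 ≤ W1.comap (MulAut.conj g).toMonoidHom := by
        conv_lhs => rw [hW1]
        rw [Subgroup.closure_le]
        rintro _ ⟨c, hc, v, hv, rfl⟩
        refine Subgroup.mem_comap.2 (Subgroup.subset_closure ⟨g * c, mul_mem hg hc, v, hv, ?_⟩)
        simp [mul_assoc]
      exact hle hw
  have hxW1 : x ∈ Subgroup.centralizer (W1 : Set X) := by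
    refine index_two_trivial (M := W1) (e := t) h.hS4 hW1el (hnorm x hxB) (hnorm t htB)
      (by rw [hAel.sq t htA]; exact one_mem _)
      (by rw [hinv, inv_mul_cancel]; exact one_mem _) hodd
      (by rw [pow_orderOf_eq_one]; exact one_mem _) fun a ha b hb hta htb => ?_
    have hnot : ∀ w, ¬ Commute t w → w ∉ B := fun w hw hwB =>
      hw (hAel.comm t htA w (hBA hwB))
    exact hAel.comm t htA _ (hBA (mul_mem_of_card_le le_sup_left hcard
      (Subgroup.mem_sup_right ha) (Subgroup.mem_sup_right hb) (hnot a hta) (hnot b htb)))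
  refine Subgroup.centralizer_le_normalizer _ (Subgroup.centralizer_le ?_ hxW1)
  intro v hv
  exact Subgroup.subset_closure ⟨1, one_mem _, v, hv, by group⟩

/-- A noncommuting conjugate of `V`. -/
theorem exists_better [Group.IsSolvable X] (h : Config S V) {A B : Subgroup X}
    (hA : A ∈ CfsgLib.LocalP.maxElemIn 2 (S : Subgroup X))
    (hmax : ∀ A' ∈ CfsgLib.LocalP.maxElemIn 2 (S : Subgroup X),
      ¬ A' ≤ Subgroup.centralizer ((Subgroup.normalClosure (V : Set X) : Subgroup X) : Set X) →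
      Nat.card ↥(A' ⊓ pCore 2 X) ≤ Nat.card ↥(A ⊓ pCore 2 X))
    {t : X} (hBA : B ≤ A) (htA : t ∈ A) (hsup : B ⊔ Subgroup.zpowers t = A)
    (hAQB : A ⊓ pCore 2 X ≤ B) {c : X} (hc : c ∈ modCent B) {b0 v : X} (hb0 : b0 ∈ B) (hv : v ∈ V)
    (hne : ¬ Commute b0 (c * v * c⁻¹)) :
    ∃ b ∈ B, (Subgroup.normalClosure (V : Set X)) ⊓ Subgroup.centralizer ({b} : Set X) ≤
        Subgroup.centralizer (A : Set X) ∧
      Nat.card ↥(Subgroup.normalClosure (V : Set X)) ≤
        4 * Nat.card ↥(Subgroup.normalClosure (V : Set X) ⊓ Subgroup.centralizer (A : Set X)) ∧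
      4 * Nat.card ↥(Subgroup.normalClosure (V : Set X) ⊓ Subgroup.centralizer ({b} : Set X)) ≤
        Nat.card ↥(Subgroup.normalClosure (V : Set X)) := by
  classical
  have hAel := Elem.of_isElementaryAbelian hA.2.1
  have hBel := hAel.mono hBA
  set Q := pCore 2 X with hQ
  set W := Subgroup.normalClosure (V : Set X) with hW
  set C := Subgroup.centralizer (W : Set X) with hC
  have hWQ : W ≤ Q := Subgroup.normalClosure_le_normal fun z hz => le_core h hz
  have hWS : W ≤ (S : Subgroup X) := hWQ.trans core_le_sylow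
  have hWel := closure_elem h
  set V' := V.map (MulAut.conj c).toMonoidHom with hV'
  have hV'W : V' ≤ W := by
    rintro _ ⟨z, hz, rfl⟩
    exact Subgroup.normalClosure_normal.conj_mem z (Subgroup.subset_normalClosure hz) c
  have hbd := h.hb.conj_elem c hBel fun z hz => conj_inv_mem_sylow (hBA.trans hA.1) hc hz
  rw [← hV'] at hbd
  set BV := B ⊓ Subgroup.centralizer (V' : Set X) with hBV
  set A2 := BV ⊔ V' with hA2
  have hA2el : Elem A2 := elem_sup (hBel.mono inf_le_left) (hWel.mono hV'W)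
    fun a ha w hw => (Subgroup.mem_centralizer_iff.1 ha.2 w hw).symm
  have hA2S : A2 ≤ (S : Subgroup X) := sup_le (inf_le_left.trans (hBA.trans hA.1)) (hV'W.trans hWS)
  set β := Nat.card BV
  set ν := Nat.card V'
  set γ := Nat.card ↥(V' ⊓ Subgroup.centralizer (B : Set X))
  have hγ : 0 < γ := Nat.card_pos
  have hβ : 0 < β := Nat.card_pos
  have e1 : β * ν ≤ Nat.card A2 * γ := by
    refine (CfsgLib.LocalP.card_mul_le_card_sup_mul_card_inf BV V').trans (Nat.mul_le_mul_left _ ?_)
    refine Subgroup.card_le_of_le fun z hz => ⟨hz.2, Subgroup.mem_centralizer_iff.2 fun b hb =>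
      hBel.comm b hb z hz.1.1⟩
  have e2 : Nat.card B ^ 2 ≤ Nat.card A2 * β := by
    refine Nat.le_of_mul_le_mul_left ?_ hγ
    calc γ * Nat.card B ^ 2 = Nat.card B ^ 2 * γ := mul_comm _ _
      _ ≤ ν * β ^ 2 := hbd
      _ = β * ν * β := by ring
      _ ≤ Nat.card A2 * γ * β := Nat.mul_le_mul_right _ e1
      _ = γ * (Nat.card A2 * β) := by ring
  have hA2A : Nat.card A2 ≤ Nat.card A := hA.2.2 _ hA2S hA2el.isElementaryAbelian
  have hA2B : Nat.card A ≤ 2 * Nat.card B := card_le_two_mul hAel htA hBA hsup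
  have hhalf : Nat.card B ≤ 2 * β := by
    refine Nat.le_of_mul_le_mul_left ?_ (Nat.card_pos : 0 < Nat.card B)
    calc Nat.card B * Nat.card B = Nat.card B ^ 2 := (sq _).symm
      _ ≤ Nat.card A2 * β := e2
      _ ≤ 2 * Nat.card B * β := Nat.mul_le_mul_right _ (hA2A.trans hA2B)
      _ = Nat.card B * (2 * β) := by ring
  have hb0C : b0 ∉ Subgroup.centralizer (V' : Set X) := fun h' =>
    hne (commute_of_mem_centralizer h' ⟨v, hv, rfl⟩)
  have heqB : Nat.card B = 2 * β := by
    refine le_antisymm hhalf ?_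
    obtain ⟨k, hk⟩ := Subgroup.card_dvd_of_le (inf_le_left : BV ≤ B)
    rw [hk, mul_comm 2]
    refine Nat.mul_le_mul_left _ ?_
    by_contra hlt
    rcases (show k = 0 ∨ k = 1 by omega) with rfl | rfl
    · rw [mul_zero] at hk; exact absurd hk Nat.card_pos.ne'
    · rw [mul_one] at hk
      have h1 := Subgroup.eq_of_le_of_card_ge (inf_le_left : BV ≤ B) hk.le
      exact hb0C (h1.ge hb0).2
  have h4 : 4 * β ≤ Nat.card A2 := by
    refine Nat.le_of_mul_le_mul_right ?_ hβ
    calc 4 * β * β = Nat.card B ^ 2 := by rw [heqB]; ring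
      _ ≤ _ := e2
  have h4A : Nat.card A ≤ 4 * β := by omega
  have hν : 4 * γ ≤ ν := by
    refine Nat.le_of_mul_le_mul_right ?_ (pow_pos hβ 2)
    calc 4 * γ * β ^ 2 = Nat.card B ^ 2 * γ := by rw [heqB]; ring
      _ ≤ _ := hbd
  have hA2max : A2 ∈ CfsgLib.LocalP.maxElemIn 2 (S : Subgroup X) :=
    ⟨hA2S, hA2el.isElementaryAbelian, fun E hE hEel => (hA.2.2 E hE hEel).trans (h4A.trans h4)⟩
  have hA2C : A2 ≤ C := by
    by_contra hA2C
    have hle := hmax A2 hA2max hA2C
    set D1 := BV ⊓ Q with hD1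
    have e3 : Nat.card D1 * ν ≤ Nat.card ↥(A2 ⊓ Q) * γ := by
      refine (CfsgLib.LocalP.card_mul_le_card_sup_mul_card_inf D1 V').trans (Nat.mul_le_mul ?_ ?_)
      · exact Subgroup.card_le_of_le (sup_le (inf_le_inf_right _ le_sup_left)
          (le_inf le_sup_right (hV'W.trans hWQ)))
      · refine Subgroup.card_le_of_le fun z hz => ⟨hz.2, Subgroup.mem_centralizer_iff.2 fun b hb =>
          hBel.comm b hb z hz.1.1.1⟩
    have e4 : 4 * Nat.card D1 ≤ Nat.card ↥(A2 ⊓ Q) := by
      refine Nat.le_of_mul_le_mul_right ?_ hγ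
      calc 4 * Nat.card D1 * γ = Nat.card D1 * (4 * γ) := by ring
        _ ≤ Nat.card D1 * ν := Nat.mul_le_mul_left _ hν
        _ ≤ _ := e3
    have e5 : Nat.card ↥(A ⊓ Q) ≤ 2 * Nat.card D1 := by
      refine Nat.le_of_mul_le_mul_right ?_ hβ
      calc Nat.card ↥(A ⊓ Q) * β
          ≤ Nat.card ↥((A ⊓ Q) ⊔ BV) * Nat.card ↥((A ⊓ Q) ⊓ BV) :=
            CfsgLib.LocalP.card_mul_le_card_sup_mul_card_inf _ _
        _ ≤ Nat.card B * Nat.card D1 := Nat.mul_le_mul
            (Subgroup.card_le_of_le (sup_le hAQB inf_le_left))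
            (Subgroup.card_le_of_le (le_inf inf_le_right (inf_le_left.trans inf_le_right)))
        _ = 2 * Nat.card D1 * β := by rw [heqB]; ring
    have : 0 < Nat.card D1 := Nat.card_pos
    omega
  have hBVC : BV ≤ C := le_sup_left.trans hA2C
  have hAC : Nat.card A ≤ 4 * Nat.card ↥(A ⊓ C) := h4A.trans (Nat.mul_le_mul_left _
    (Subgroup.card_le_of_le (le_inf (inf_le_left.trans hBA) hBVC)))
  have hWA : Nat.card W ≤ 4 * Nat.card ↥(W ⊓ Subgroup.centralizer (A : Set X)) := by
    refine Nat.le_of_mul_le_mul_left ?_ (Nat.card_pos : 0 < Nat.card ↥(A ⊓ C))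
    calc Nat.card ↥(A ⊓ C) * Nat.card W
        ≤ Nat.card ↥((A ⊓ C) ⊔ W) * Nat.card ↥((A ⊓ C) ⊓ W) :=
          CfsgLib.LocalP.card_mul_le_card_sup_mul_card_inf _ _
      _ ≤ Nat.card A * Nat.card ↥(W ⊓ Subgroup.centralizer (A : Set X)) := by
          refine Nat.mul_le_mul (hA.2.2 _ (sup_le (inf_le_left.trans hA.1) hWS)
            (elem_sup (hAel.mono inf_le_left) hWel fun a ha w hw =>
              (Subgroup.mem_centralizer_iff.1 ha.2 w hw).symm).isElementaryAbelian) ?_
          exact Subgroup.card_le_of_le fun z hz => ⟨hz.2, Subgroup.mem_centralizer_iff.2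
            fun a ha => hAel.comm a ha z hz.1.1⟩
      _ ≤ 4 * Nat.card ↥(A ⊓ C) * Nat.card ↥(W ⊓ Subgroup.centralizer (A : Set X)) :=
          Nat.mul_le_mul_right _ hAC
      _ = _ := by ring
  have hWb : 4 * Nat.card ↥(W ⊓ Subgroup.centralizer ({b0} : Set X)) ≤ Nat.card W := by
    refine Nat.le_of_mul_le_mul_left ?_ hγ
    calc γ * (4 * Nat.card ↥(W ⊓ Subgroup.centralizer ({b0} : Set X)))
        = 4 * γ * Nat.card ↥(W ⊓ Subgroup.centralizer ({b0} : Set X)) := by ring
      _ ≤ ν * Nat.card ↥(W ⊓ Subgroup.centralizer ({b0} : Set X)) := Nat.mul_le_mul_right _ hν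
      _ ≤ Nat.card ↥(V' ⊔ (W ⊓ Subgroup.centralizer ({b0} : Set X))) *
          Nat.card ↥(V' ⊓ (W ⊓ Subgroup.centralizer ({b0} : Set X))) :=
          CfsgLib.LocalP.card_mul_le_card_sup_mul_card_inf _ _
      _ ≤ Nat.card W * γ := by
          refine Nat.mul_le_mul (Subgroup.card_le_of_le (sup_le hV'W inf_le_left))
            (Subgroup.card_le_of_le fun z hz => Subgroup.mem_inf.2 ⟨hz.1, ?_⟩)
          have hz0 : Commute b0 z := (Subgroup.mem_centralizer_singleton_iff.1 hz.2.2).symm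
          refine Subgroup.mem_centralizer_iff.2 fun b hb => ?_
          by_cases hbV : b ∈ BV
          · exact (commute_of_mem_centralizer hbV.2 hz.1).eq
          · have h1 := mul_mem_of_card_le (inf_le_left : BV ≤ B) hhalf hb hb0 hbV
              fun h' => hb0C h'.2
            have h2 : Commute (b * b0) z := commute_of_mem_centralizer h1.2 hz.1
            have h3 := h2.mul_left hz0
            rw [mul_assoc, hBel.sq b0 hb0, mul_one] at h3
            exact h3.eq
      _ = γ * Nat.card W := mul_comm _ _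
  refine ⟨b0, hb0, fun z hz => ?_, hWA, hWb⟩
  have hle : W ⊓ Subgroup.centralizer (A : Set X) ≤ W ⊓ Subgroup.centralizer ({b0} : Set X) :=
    inf_le_inf_left _ (Subgroup.centralizer_le (Set.singleton_subset_iff.2 (hBA hb0)))
  exact ((Subgroup.eq_of_le_of_card_ge hle (by omega)).ge hz).2

end Config

end CfsgLib.SolvableSFour
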