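import Mathlib
import Cfsg.Agent.Eq.Def_Solvable
import Cfsg.Agent.Eq.Def_Transfer
import Cfsg.Agent.PGroup.Normal
import Cfsg.Agent.SolvableSFour.AmalgamCases

/-!
The normality theorem: if `V` is an elementary subgroup of a Sylow 2-subgroup `S` satisfying the
square bound, centralised by `J(S)` and with `N(J(S)) ≤ N(V)`, then `V` is normal.
-/

set_option autoImplicit false

namespace CfsgLib.SolvableSFour

open Cfsg

variable {X : Type*} [Group X] [Finite X]

namespace Config

variable {S : Sylow 2 X} {V : Subgroup X}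

/-- The moving case. -/
theorem case_move [Group.IsSolvable X] (h : Config S V) {A : Subgroup X} (hAel : Elem A)
    {b t k x : X} (hbA : b ∈ A) (htA : t ∈ A)
    (hbx : b * x * b⁻¹ * x⁻¹ ∈ pCore 2 X) (hinv : t * x * t⁻¹ = x⁻¹) (hodd : Odd (orderOf x))
    (hxcomm : ∀ w : X, Commute t w → Commute (k * t * k⁻¹) w → Commute x w)
    (hbfix : Subgroup.normalClosure (V : Set X) ⊓ Subgroup.centralizer ({b} : Set X) ≤
      Subgroup.centralizer (A : Set X))
    (hWA : Nat.card ↥(Subgroup.normalClosure (V : Set X)) ≤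
      4 * Nat.card ↥(Subgroup.normalClosure (V : Set X) ⊓ Subgroup.centralizer (A : Set X)))
    (hWb : 4 * Nat.card ↥(Subgroup.normalClosure (V : Set X) ⊓
        Subgroup.centralizer ({b} : Set X)) ≤ Nat.card ↥(Subgroup.normalClosure (V : Set X))) :
    x ∈ Subgroup.centralizer ((Subgroup.normalClosure (V : Set X) : Subgroup X) : Set X) := by
  classical
  haveI : Fact (Nat.Prime 2) := ⟨Nat.prime_two⟩
  set Q := pCore 2 X with hQ
  set W := Subgroup.normalClosure (V : Set X) with hW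
  set C := Subgroup.centralizer (W : Set X) with hC
  haveI : C.Normal := by rw [hC]; infer_instance
  have hWel : Elem W := closure_elem h
  have hWQ : W ≤ Q := Subgroup.normalClosure_le_normal fun z hz => le_core h hz
  have hWtop : ∀ z : X, z ∈ Subgroup.normalizer (W : Set X) := fun z => by
    rw [Subgroup.normalizer_eq_top]; trivial
  by_contra hxC
  have htC : t * t ∈ C := by rw [hAel.sq t htA]; exact one_mem _
  have hinvC : t * x * t⁻¹ * x ∈ C := by rw [hinv, inv_mul_cancel]; exact one_mem _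
  have hxn : x ^ orderOf x ∈ C := by rw [pow_orderOf_eq_one]; exact one_mem _
  -- the common fixed points
  set P := W ⊓ Subgroup.centralizer (A : Set X) with hP
  set L := P ⊓ P.map (MulAut.conj k).toMonoidHom with hL
  have hLW : L ≤ W := inf_le_left.trans inf_le_left
  have hLt : ∀ l ∈ L, Commute t l := fun l hl =>
    Subgroup.mem_centralizer_iff.1 hl.1.2 t htA
  have hLb : ∀ l ∈ L, Commute b l := fun l hl =>
    Subgroup.mem_centralizer_iff.1 hl.1.2 b hbA
  have hLk : ∀ l ∈ L, Commute (k * t * k⁻¹) l := by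
    intro l hl
    obtain ⟨w, hw, rfl⟩ := hl.2
    have h1 : Commute t w := Subgroup.mem_centralizer_iff.1 hw.2 t htA
    exact h1.map (MulAut.conj k).toMonoidHom
  have hLx : ∀ l ∈ L, Commute x l := fun l hl => hxcomm l (hLt l hl) (hLk l hl)
  have hL16 : Nat.card W ≤ 16 * Nat.card L := by
    have h1 := CfsgLib.LocalP.card_mul_le_card_sup_mul_card_inf P
      (P.map (MulAut.conj k).toMonoidHom)
    rw [Subgroup.card_map_of_injective (MulAut.conj k).injective, ← hL] at h1
    have h2 : Nat.card ↥(P ⊔ P.map (MulAut.conj k).toMonoidHom) ≤ Nat.card W := by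
      refine Subgroup.card_le_of_le (sup_le inf_le_left ?_)
      rintro _ ⟨w, hw, rfl⟩
      exact Subgroup.normalClosure_normal.conj_mem w hw.1 k
    refine Nat.le_of_mul_le_mul_left ?_ (Nat.card_pos : 0 < Nat.card W)
    calc Nat.card W * Nat.card W ≤ 4 * Nat.card P * (4 * Nat.card P) := Nat.mul_le_mul hWA hWA
      _ = 16 * (Nat.card P * Nat.card P) := by ring
      _ ≤ 16 * (Nat.card W * Nat.card L) :=
          Nat.mul_le_mul_left _ (h1.trans (Nat.mul_le_mul_right _ h2))
      _ = _ := by ring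
  -- the commutator space of `x`
  set D := commSub W x with hD
  have hDW : D ≤ W := commSub_le (hWtop x)
  have hfpf := fun {w} => commSub_fpf (w := w) hWel (hWtop x) hodd hxn
  have hDx : ∀ w ∈ D, x * w * x⁻¹ ∈ D := fun w hw => commSub_conj_mem hWel (hWtop x) hw
  have hDt : ∀ w ∈ D, t * w * t⁻¹ ∈ D := fun w hw =>
    commSub_conj_mem_of_inv hWel (hWtop x) (hWtop t) hinvC hw
  have hDcard := card_commSub_mul hWel (hWtop x)
  rw [← hD] at hDcard
  have hLCx : L ≤ W ⊓ Subgroup.centralizer ({x} : Set X) := le_inf hLW fun l hl =>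
    Subgroup.mem_centralizer_singleton_iff.2 (hLx l hl).eq.symm
  have hsq := card_commSub_eq_sq hWel (hWtop x) (hWtop t) htC hinvC hodd hxn
  rw [← hD] at hsq
  have hsmall : ∀ U : Subgroup X, U ≤ D → (∀ u ∈ U, x * u * x⁻¹ ∈ U) →
      (∀ u ∈ U, t * u * t⁻¹ ∈ U) → Nat.card U ≤ 4 → U = ⊥ := by
    intro U hUD hUx hUt hcard
    have hUel := hWel.mono (hUD.trans hDW)
    have hle : ∀ z ∈ C, z ∈ Subgroup.centralizer (U : Set X) := fun z hz =>
      Subgroup.centralizer_le (hUD.trans hDW) hz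
    have h3 := cube_trivial h.hS4 hUel (mem_normalizer_of_forall hUx)
      (mem_normalizer_of_forall hUt) (hle _ htC) (hle _ hinvC)
      (cube_of_card_le_four hUel (mem_normalizer_of_forall hUx) hodd (hle _ hxn) hcard)
    exact (Subgroup.eq_bot_iff_forall _).2 fun u hu =>
      hfpf (hUD hu) (commute_of_mem_centralizer h3 hu)
  have hD4 : ¬ Nat.card D ≤ 4 := by
    intro h4
    have hbot := hsmall D le_rfl hDx hDt h4
    refine hxC (Subgroup.mem_centralizer_iff.2 fun w hw => ?_)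
    have h2 : x * w * x⁻¹ = w := hWel.eq_of_mul_eq_one hw
      (Subgroup.mem_bot.1 (hbot ▸ mul_conj_mem_commSub hw))
    exact (mul_inv_eq_iff_eq_mul.1 h2).symm
  have hD16 : Nat.card D = 16 ∧ W ⊓ Subgroup.centralizer ({x} : Set X) = L := by
    have hle : Nat.card D ≤ 16 := by
      refine Nat.le_of_mul_le_mul_right ?_ (Nat.card_pos : 0 < Nat.card L)
      calc Nat.card D * Nat.card L
          ≤ Nat.card D * Nat.card ↥(W ⊓ Subgroup.centralizer ({x} : Set X)) :=
            Nat.mul_le_mul_left _ (Subgroup.card_le_of_le hLCx)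
        _ = Nat.card W := hDcard
        _ ≤ _ := hL16
    set c := Nat.card ↥(D ⊓ Subgroup.centralizer ({t} : Set X))
    obtain ⟨i, hi⟩ := IsPGroup.iff_card.1
      (hWel.mono (inf_le_left.trans hDW) : Elem (D ⊓ Subgroup.centralizer ({t} : Set X))).isPGroup
    have hc : c = 4 := by
      have h1 : c ≤ 4 := by
        by_contra hlt
        have : 5 ^ 2 ≤ c ^ 2 := Nat.pow_le_pow_left (by omega) 2
        omega
      have h2 : 2 < c := by
        by_contra hlt
        have : c ^ 2 ≤ 2 ^ 2 := Nat.pow_le_pow_left (by omega) 2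
        omega
      rcases i with _ | _ | _ | i
      · have hi' : c = 2 ^ 0 := hi
        norm_num at hi'
        omega
      · have hi' : c = 2 ^ 1 := hi
        norm_num at hi'
        omega
      · exact hi
      · exfalso
        have : 2 ^ 3 ≤ 2 ^ (i + 3) := Nat.pow_le_pow_right (by norm_num) (by omega)
        have hi' : c = 2 ^ (i + 3) := hi
        omega
    have h16 : Nat.card D = 16 := by rw [hsq, hc]; norm_num
    refine ⟨h16, (Subgroup.eq_of_le_of_card_ge hLCx ?_).symm⟩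
    rw [h16] at hDcard
    omega
  obtain ⟨h16, hCxL⟩ := hD16
  have hDL : D ⊓ L = ⊥ := (Subgroup.eq_bot_iff_forall _).2 fun w hw => hfpf hw.1 (hLx w hw.2)
  have hWsplit : ∀ w ∈ W, ∃ d ∈ D, ∃ l ∈ L, w = d * l := by
    have h1 : W ≤ D ⊔ L := by
      refine (Subgroup.eq_of_le_of_card_ge (sup_le hDW hLW) ?_).ge
      have h2 := CfsgLib.LocalP.card_mul_le_card_sup_mul_card_inf D L
      rw [hDL, Subgroup.card_bot, mul_one] at h2
      rw [hCxL] at hDcard
      omega
    intro w hw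
    have hw' : w ∈ ((D ⊔ L : Subgroup X) : Set X) := h1 hw
    rw [Subgroup.coe_mul_of_right_le_normalizer_left D L (fun l hl => mem_normalizer_of_forall
      fun d hd => by rw [hWel.comm l (hLW hl) d (hDW hd), mul_inv_cancel_right]; exact hd)] at hw'
    obtain ⟨d, hd, l, hl, rfl⟩ := hw'
    exact ⟨d, hd, l, hl, rfl⟩
  -- the stabiliser of the series
  set P0 := Q ⊓ Subgroup.centralizer (L : Set X) with hP0
  have hP0fix : ∀ q ∈ P0, ∀ l ∈ L, q * l * q⁻¹ = l := fun q hq l hl => by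
    rw [(commute_of_mem_centralizer hq.2 hl).eq, mul_inv_cancel_right]
  have hP0norm : ∀ z : X, (∀ l ∈ L, Commute z l) → ∀ q ∈ P0, z * q * z⁻¹ ∈ P0 := fun z hz q hq =>
    Subgroup.mem_inf.2 ⟨conj_core_mem hq.1, Subgroup.mem_centralizer_iff.2 fun l hl =>
      (((hz l hl).mul_left (commute_of_mem_centralizer hq.2 hl)).mul_left
        (hz l hl).inv_left).eq.symm⟩
  let P1 : Subgroup X :=
    { carrier := {q | q ∈ P0 ∧ ∀ w ∈ W, w * (q * w * q⁻¹) ∈ L}
      one_mem' := ⟨one_mem _, fun w hw => by simp [hWel.sq w hw]⟩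
      mul_mem' := by
        intro p q hp hq
        refine ⟨mul_mem hp.1 hq.1, fun w hw => ?_⟩
        have h1 := hp.2 w hw
        have h2 := hq.2 w hw
        have h3 : p * (w * (q * w * q⁻¹)) * p⁻¹ = w * (q * w * q⁻¹) := hP0fix p hp.1 _ h2
        have h4 := mul_mem h1 h2
        rw [← h3] at h4
        rw [show p * (w * (q * w * q⁻¹)) * p⁻¹ = p * w * p⁻¹ * (p * q * w * (p * q)⁻¹) by group,
          mul_assoc w, ← mul_assoc (p * w * p⁻¹) (p * w * p⁻¹),
          hWel.sq _ (conj_mem_of_mem_normalizer (hWtop p) hw), one_mul] at h4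
        exact h4
      inv_mem' := by
        intro p hp
        refine ⟨inv_mem hp.1, fun w hw => ?_⟩
        have hw' : p⁻¹ * w * p⁻¹⁻¹ ∈ W := conj_mem_of_mem_normalizer (hWtop _) hw
        have h1 := hp.2 _ hw'
        rw [hWel.comm _ hw' _ (conj_mem_of_mem_normalizer (hWtop p) hw')] at h1
        rwa [show p * (p⁻¹ * w * p⁻¹⁻¹) * p⁻¹ = w by group] at h1 }
  have hmemP1 : ∀ {q}, q ∈ P1 ↔ q ∈ P0 ∧ ∀ w ∈ W, w * (q * w * q⁻¹) ∈ L := Iff.rfl
  have hP1sq : ∀ p ∈ P1, p * p ∈ C := by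
    intro p hp
    refine Subgroup.mem_centralizer_iff.2 fun w hw => ?_
    obtain ⟨hp0, hp1⟩ := hmemP1.1 hp
    have h1 : p * w * p⁻¹ = w * (w * (p * w * p⁻¹)) := by rw [← mul_assoc, hWel.sq w hw, one_mul]
    have h2 := hP0fix p hp0 _ (hp1 w hw)
    have h3 : p * p * w * (p * p)⁻¹ = w := by
      calc p * p * w * (p * p)⁻¹ = p * (p * w * p⁻¹) * p⁻¹ := by group
        _ = p * w * p⁻¹ * (p * (w * (p * w * p⁻¹)) * p⁻¹) := by
            nth_rewrite 1 [h1]; group
        _ = p * w * p⁻¹ * (w * (p * w * p⁻¹)) := by rw [h2]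
        _ = w := by
            rw [← hWel.comm _ (mul_mem hw (conj_mem_of_mem_normalizer (hWtop p) hw)) _
              (conj_mem_of_mem_normalizer (hWtop p) hw), mul_assoc,
              hWel.sq _ (conj_mem_of_mem_normalizer (hWtop p) hw), mul_one]
    exact (mul_inv_eq_iff_eq_mul.1 h3).symm
  have hP1c : ∀ p ∈ P1, ∀ q ∈ P1, p * q * p⁻¹ * q⁻¹ ∈ C := by
    intro p hp q hq
    set π := QuotientGroup.mk' C
    have hsq1 : ∀ r ∈ P1, π r * π r = 1 := fun r hr => by
      rw [← map_mul]; exact (QuotientGroup.eq_one_iff _).2 (hP1sq r hr)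
    refine (QuotientGroup.eq_one_iff _).1 (show π _ = 1 from ?_)
    rw [map_mul, map_mul, map_mul, map_inv, map_inv, inv_eq_of_mul_eq_one_right (hsq1 p hp),
      inv_eq_of_mul_eq_one_right (hsq1 q hq)]
    have := hsq1 (p * q) (mul_mem hp hq)
    rw [map_mul] at this
    simpa [mul_assoc] using this
  have hP1Q : P1 ≤ Q := fun q hq => (hmemP1.1 hq).1.1
  -- `P1` acts trivially
  have hP1C : P1 ≤ C := by
    have hgb := greedy_bound (Q := Q) h.hb core_le_sylow _ P1 rfl hP1Q hP1c hP1sq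
    set π := QuotientGroup.mk' C with hπ
    set M := P1.map π with hM
    have hMel : Elem M := by
      refine ⟨?_, ?_⟩
      · rintro _ ⟨p, hp, rfl⟩ _ ⟨q, hq, rfl⟩
        have h1 : π (p * q * p⁻¹ * q⁻¹) = 1 := (QuotientGroup.eq_one_iff _).2 (hP1c p hp q hq)
        simp only [map_mul, map_inv] at h1
        calc π p * π q = (π p * π q * (π p)⁻¹ * (π q)⁻¹) * (π q * π p) := by group
          _ = π q * π p := by rw [h1, one_mul]
      · rintro _ ⟨p, hp, rfl⟩
        rw [← map_mul]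
        exact (QuotientGroup.eq_one_iff _).2 (hP1sq p hp)
    have hMcard : Nat.card M ≤ 4 := by
      have h1 : Nat.card P1 = Nat.card ↥(P1 ⊓ C) * Nat.card M := by
        have h2 := Subgroup.relIndex_mul_relIndex ⊥ (P1 ⊓ C) P1 bot_le inf_le_left
        simp only [Subgroup.relIndex_bot_left] at h2
        rw [Subgroup.inf_relIndex_left] at h2
        rw [hM, ← Subgroup.relIndex_ker, hπ, QuotientGroup.ker_mk']
        exact h2.symm
      have h2 : L ≤ W ⊓ Subgroup.centralizer (P1 : Set X) :=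
        le_inf hLW fun l hl => Subgroup.mem_centralizer_iff.2 fun q hq =>
          (commute_of_mem_centralizer (hmemP1.1 hq).1.2 hl).eq
      have h3 : Nat.card P1 ^ 2 * Nat.card L ≤ 16 * Nat.card L * Nat.card ↥(P1 ⊓ C) ^ 2 :=
        (Nat.mul_le_mul_left _ (Subgroup.card_le_of_le h2)).trans
          (hgb.trans (Nat.mul_le_mul_right _ hL16))
      have h4 : Nat.card M ^ 2 ≤ 4 ^ 2 := by
        refine Nat.le_of_mul_le_mul_right ?_
          (Nat.mul_pos (Nat.card_pos : 0 < Nat.card L)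
            (pow_pos (Nat.card_pos : 0 < Nat.card ↥(P1 ⊓ C)) 2))
        calc Nat.card M ^ 2 * (Nat.card L * Nat.card ↥(P1 ⊓ C) ^ 2)
            = Nat.card P1 ^ 2 * Nat.card L := by rw [h1]; ring
          _ ≤ _ := h3
          _ = _ := by ring
      exact (Nat.pow_le_pow_iff_left two_ne_zero).1 h4
    have hxP1 : ∀ q ∈ P1, x * q * x⁻¹ ∈ P1 := by
      intro q hq
      obtain ⟨hq0, hq1⟩ := hmemP1.1 hq
      refine hmemP1.2 ⟨hP0norm x hLx q hq0, fun w hw => ?_⟩
      have hw' : x⁻¹ * w * x⁻¹⁻¹ ∈ W := conj_mem_of_mem_normalizer (hWtop _) hw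
      have h1 := hq1 _ hw'
      have h2 : x * (x⁻¹ * w * x⁻¹⁻¹ * (q * (x⁻¹ * w * x⁻¹⁻¹) * q⁻¹)) * x⁻¹ =
          x⁻¹ * w * x⁻¹⁻¹ * (q * (x⁻¹ * w * x⁻¹⁻¹) * q⁻¹) := by
        rw [(hLx _ h1).eq, mul_inv_cancel_right]
      rw [← h2] at h1
      convert h1 using 1
      group
    have hcube := cube_of_card_le_four hMel (g := π x)
      (mem_normalizer_of_forall (by
        rintro _ ⟨q, hq, rfl⟩
        exact ⟨x * q * x⁻¹, hxP1 q hq, by simp⟩)) hodd
      (by rw [← map_pow, pow_orderOf_eq_one, map_one]; exact one_mem _) hMcard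
    obtain ⟨r, hr⟩ := exists_pow_cube h.hS4 hWel (hAel.sq t htA) hinv hodd
    have hxM : π x ∈ Subgroup.centralizer (M : Set (X ⧸ C)) := by
      have h1 : π ((x ^ 3) ^ r * x⁻¹) = 1 := (QuotientGroup.eq_one_iff _).2 hr
      rw [map_mul, map_inv, mul_inv_eq_one] at h1
      rw [← h1, map_pow, map_pow]
      exact pow_mem hcube r
    intro q hq
    obtain ⟨hq0, hq1⟩ := hmemP1.1 hq
    have hqx : q * x * q⁻¹ * x⁻¹ ∈ C := by
      refine (QuotientGroup.eq_one_iff _).1 (show π _ = 1 from ?_)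
      rw [map_mul, map_mul, map_mul, map_inv, map_inv,
        Subgroup.mem_centralizer_iff.1 hxM _ ⟨q, hq, rfl⟩, mul_inv_cancel_right, mul_inv_cancel]
    have hqD : ∀ w ∈ D, q * w * q⁻¹ ∈ D := fun w hw =>
      commSub_conj_mem_of_comm hWel (hWtop x) (hWtop q) (fun m hm => by
        have hm' : x * q * m * (x * q)⁻¹ ∈ W := conj_mem_of_mem_normalizer (hWtop _) hm
        calc q * x * m * (q * x)⁻¹ = (q * x * q⁻¹ * x⁻¹) * (x * q * m * (x * q)⁻¹) *
              (q * x * q⁻¹ * x⁻¹)⁻¹ := by group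
          _ = x * q * m * (x * q)⁻¹ := by
              rw [(commute_of_mem_centralizer hqx hm').eq, mul_inv_cancel_right]) hw
    refine Subgroup.mem_centralizer_iff.2 fun w hw => ?_
    obtain ⟨d, hd, l, hl, rfl⟩ := hWsplit w hw
    have h1 : q * d * q⁻¹ = d := by
      refine hWel.eq_of_mul_eq_one (hDW hd) (Subgroup.mem_bot.1 (hDL ▸ ?_))
      exact Subgroup.mem_inf.2 ⟨mul_mem hd (hqD d hd), hq1 d (hDW hd)⟩
    have h2 : Commute q d := mul_inv_eq_iff_eq_mul.1 h1
    exact (h2.mul_right (commute_of_mem_centralizer hq0.2 hl)).eq.symm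
  -- the fixed points of `P0` on `W / L`
  let Y : Subgroup X :=
    { carrier := {w | w ∈ W ∧ ∀ q ∈ P0, w * (q * w * q⁻¹) ∈ L}
      one_mem' := ⟨one_mem _, fun q _ => by simp⟩
      mul_mem' := by
        intro u v hu hv
        refine ⟨mul_mem hu.1 hv.1, fun q hq => ?_⟩
        rw [show q * (u * v) * q⁻¹ = q * u * q⁻¹ * (q * v * q⁻¹) by group,
          hWel.swap4 hv.1 (conj_mem_of_mem_normalizer (hWtop q) hu.1)]
        exact mul_mem (hu.2 q hq) (hv.2 q hq)
      inv_mem' := by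
        intro u hu
        rw [hWel.inv_eq hu.1]
        exact hu }
  have hmemY : ∀ {w}, w ∈ Y ↔ w ∈ W ∧ ∀ q ∈ P0, w * (q * w * q⁻¹) ∈ L := Iff.rfl
  have hLY : L ≤ Y := fun l hl => hmemY.2 ⟨hLW hl, fun q hq => by
    rw [hP0fix q hq l hl, hWel.sq l (hLW hl)]; exact one_mem _⟩
  obtain ⟨w0, hw0Y, hw0L⟩ : ∃ w ∈ Y, w ∉ L := by
    set H := W ⊔ P0 with hH
    have hH2 : IsPGroup 2 H :=
      (CfsgLib.Constrained.isPGroup_pCore (p := 2) (G := X)).to_le (sup_le hWQ inf_le_left)
    have hHL : H ≤ Subgroup.centralizer (L : Set X) := sup_le (fun w hw =>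
      Subgroup.mem_centralizer_iff.2 fun l hl => hWel.comm l (hLW hl) w hw) inf_le_right
    haveI : (L.subgroupOf H).Normal := ⟨fun l hl g => by
      have hgl : Commute (g : X) l := commute_of_mem_centralizer (hHL g.2) hl
      show (g : X) * l * (g : X)⁻¹ ∈ L
      rw [hgl.eq, mul_inv_cancel_right]
      exact hl⟩
    haveI : (W.subgroupOf H).Normal := (inferInstance : W.Normal).subgroupOf H
    set π := QuotientGroup.mk' (L.subgroupOf H) with hπ
    haveI : ((W.subgroupOf H).map π).Normal :=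
      Subgroup.Normal.map inferInstance π (QuotientGroup.mk'_surjective _)
    have hne : (W.subgroupOf H).map π ≠ ⊥ := by
      intro hbot
      rw [Subgroup.map_eq_bot_iff, hπ, QuotientGroup.ker_mk'] at hbot
      have hWL : W ≤ L := fun w hw =>
        hbot (show (⟨w, Subgroup.mem_sup_left hw⟩ : H) ∈ W.subgroupOf H from hw)
      have h3 := Subgroup.card_le_of_le hWL
      rw [hCxL, h16] at hDcard
      have h4 : 0 < Nat.card L := Nat.card_pos
      omega
    obtain ⟨_, ⟨⟨w, hw, rfl⟩, hcen⟩, hne1⟩ := (Subgroup.bot_or_exists_ne_one _).resolve_left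
      (CfsgLib.PGroup.inf_center_ne_bot (hH2.to_quotient _) _ hne)
    refine ⟨w, hmemY.2 ⟨hw, fun q hq => ?_⟩, fun hwL => hne1 ((QuotientGroup.eq_one_iff _).2 hwL)⟩
    have h1 := Subgroup.mem_center_iff.1 hcen (π ⟨q, Subgroup.mem_sup_right hq⟩)
    rw [← map_mul, ← map_mul] at h1
    have h2 := QuotientGroup.eq.1 h1.symm
    have h3 : ((w : X) * q)⁻¹ * (q * w) ∈ L := h2
    have h4 := hP0fix q hq _ h3
    rw [← h4] at h3
    have hwi : (w : X)⁻¹ = w := hWel.inv_eq hw
    rw [mul_inv_rev, hwi] at h3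
    convert h3 using 1
    group
  set U := D ⊓ Y with hU
  have hUne : U ≠ ⊥ := by
    intro hbot
    obtain ⟨hw0W, -⟩ := hmemY.1 hw0Y
    obtain ⟨d, hd, l, hl, rfl⟩ := hWsplit w0 hw0W
    have hdY : d ∈ Y := by simpa using mul_mem hw0Y (inv_mem (hLY hl))
    have hd1 : d ∈ U := Subgroup.mem_inf.2 ⟨hd, hdY⟩
    rw [hbot, Subgroup.mem_bot] at hd1
    exact hw0L (by rw [hd1, one_mul]; exact hl)
  have hYinv : ∀ z : X, (∀ l ∈ L, Commute z l) → ∀ w ∈ Y, z * w * z⁻¹ ∈ Y := by
    intro z hz w hw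
    obtain ⟨hwW, hwq⟩ := hmemY.1 hw
    refine hmemY.2 ⟨conj_mem_of_mem_normalizer (hWtop z) hwW, fun q hq => ?_⟩
    have h1 := hwq _ (hP0norm z⁻¹ (fun l hl => (hz l hl).inv_left) q hq)
    have h2 : z * (w * (z⁻¹ * q * z⁻¹⁻¹ * w * (z⁻¹ * q * z⁻¹⁻¹)⁻¹)) * z⁻¹ =
        w * (z⁻¹ * q * z⁻¹⁻¹ * w * (z⁻¹ * q * z⁻¹⁻¹)⁻¹) := by
      rw [(hz _ h1).eq, mul_inv_cancel_right]
    rw [← h2] at h1
    convert h1 using 1
    group
  have hUx : ∀ u ∈ U, x * u * x⁻¹ ∈ U := fun u hu =>
    Subgroup.mem_inf.2 ⟨hDx u hu.1, hYinv x hLx u hu.2⟩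
  have hUt : ∀ u ∈ U, t * u * t⁻¹ ∈ U := fun u hu =>
    Subgroup.mem_inf.2 ⟨hDt u hu.1, hYinv t hLt u hu.2⟩
  have hP0C : P0 ≤ C := by
    by_cases hUD : U = D
    · intro q hq
      refine hP1C (hmemP1.2 ⟨hq, fun w hw => ?_⟩)
      obtain ⟨d, hd, l, hl, rfl⟩ := hWsplit w hw
      have hdY : d ∈ Y := (hUD.ge hd).2
      rw [show q * (d * l) * q⁻¹ = q * d * q⁻¹ * (q * l * q⁻¹) by group, hP0fix q hq l hl,
        hWel.swap4 (hLW hl) (conj_mem_of_mem_normalizer (hWtop q) (hDW hd)), hWel.sq l (hLW hl),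
        mul_one]
      exact (hmemY.1 hdY).2 q hq
    · exfalso
      have hUel := hWel.mono (inf_le_left.trans hDW : U ≤ W)
      have hle : ∀ z ∈ C, z ∈ Subgroup.centralizer (U : Set X) := fun z hz =>
        Subgroup.centralizer_le (inf_le_left.trans hDW) hz
      have hxU := mem_normalizer_of_forall hUx
      have h1 := card_commSub_mul hUel hxU
      have h2 : U ⊓ Subgroup.centralizer ({x} : Set X) = ⊥ :=
        (Subgroup.eq_bot_iff_forall _).2 fun u hu =>
          hfpf hu.1.1 (Subgroup.mem_centralizer_singleton_iff.1 hu.2).symm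
      rw [h2, Subgroup.card_bot, mul_one] at h1
      have h3 := card_commSub_eq_sq hUel hxU (mem_normalizer_of_forall hUt) (hle _ htC)
        (hle _ hinvC) hodd (hle _ hxn)
      rw [h1] at h3
      have hlt : Nat.card U < 16 := by
        rw [← h16]
        exact lt_of_le_of_ne (Subgroup.card_le_of_le inf_le_left) fun e =>
          hUD (Subgroup.eq_of_le_of_card_ge inf_le_left e.ge)
      refine hUne (hsmall U inf_le_left hUx hUt ?_)
      set c := Nat.card ↥(commSub U x ⊓ Subgroup.centralizer ({t} : Set X))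
      obtain ⟨i, hi⟩ := IsPGroup.iff_card.1
        (hUel.mono (inf_le_left.trans (commSub_le hxU)) :
          Elem (commSub U x ⊓ Subgroup.centralizer ({t} : Set X))).isPGroup
      have hi' : c = 2 ^ i := hi
      have h5 : i < 2 := by
        by_contra hge
        have h6 : 2 ^ 2 ≤ c := hi' ▸ Nat.pow_le_pow_right (by norm_num) (by omega)
        have h7 : (2 ^ 2) ^ 2 ≤ c ^ 2 := Nat.pow_le_pow_left h6 2
        exact absurd (h3 ▸ hlt) (by omega)
      rw [h3, hi']
      interval_cases i <;> norm_num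
  -- so `C_W(b)` is invariant under `x`
  have hq0 : b * x * b⁻¹ * x⁻¹ ∈ C := hP0C (Subgroup.mem_inf.2 ⟨hbx,
    Subgroup.mem_centralizer_iff.2 fun l hl => ((((hLb l hl).mul_left (hLx l hl)).mul_left
      (hLb l hl).inv_left).mul_left (hLx l hl).inv_left).eq.symm⟩)
  have hle : W ⊓ Subgroup.centralizer ({b} : Set X) ≤ L := by
    intro w hw
    obtain ⟨hwW, hwb⟩ := Subgroup.mem_inf.1 hw
    rw [← hCxL]
    refine Subgroup.mem_inf.2 ⟨hwW, Subgroup.mem_centralizer_singleton_iff.2 ?_⟩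
    have hxw := conj_mem_of_mem_normalizer (hWtop x) hwW
    have hxwb : x * w * x⁻¹ ∈ W ⊓ Subgroup.centralizer ({b} : Set X) := by
      refine Subgroup.mem_inf.2 ⟨hxw, Subgroup.mem_centralizer_singleton_iff.2 (Eq.symm ?_)⟩
      refine mul_inv_eq_iff_eq_mul.1 ?_
      have hbw : b * w * b⁻¹ = w := by
        rw [← Subgroup.mem_centralizer_singleton_iff.1 hwb, mul_inv_cancel_right]
      calc b * (x * w * x⁻¹) * b⁻¹
          = (b * x * b⁻¹ * x⁻¹) * (x * (b * w * b⁻¹) * x⁻¹) * (b * x * b⁻¹ * x⁻¹)⁻¹ := by group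
        _ = x * w * x⁻¹ := by
            rw [hbw, (commute_of_mem_centralizer hq0 hxw).eq, mul_inv_cancel_right]
    have htw : Commute t w := Subgroup.mem_centralizer_iff.1 (hbfix hw) t htA
    have htxw : Commute t (x * w * x⁻¹) := Subgroup.mem_centralizer_iff.1 (hbfix hxwb) t htA
    have h1 : t * (x * w * x⁻¹) * t⁻¹ = x * w * x⁻¹ := by rw [htxw.eq, mul_inv_cancel_right]
    have h2 : t * (x * w * x⁻¹) * t⁻¹ = x⁻¹ * w * x := by
      rw [show t * (x * w * x⁻¹) * t⁻¹ = t * x * t⁻¹ * (t * w * t⁻¹) * (t * x * t⁻¹)⁻¹ by group,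
        hinv, inv_inv, htw.eq, mul_inv_cancel_right]
    have h3 : Commute (x ^ 2) w := by
      refine mul_inv_eq_iff_eq_mul.1 ?_
      rw [conj_sq', ← h1, h2]
      group
    exact (commute_of_sq_commute hodd h3
      (by rw [pow_orderOf_eq_one]; exact Commute.one_left w)).eq.symm
  have h5 := Subgroup.card_le_of_le hle
  have h6 : 0 < Nat.card L := Nat.card_pos
  have h7 : Nat.card P ≤ Nat.card ↥(W ⊓ Subgroup.centralizer ({b} : Set X)) :=
    Subgroup.card_le_of_le (inf_le_inf_left _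
      (Subgroup.centralizer_le (Set.singleton_subset_iff.2 hbA)))
  rw [hCxL, h16] at hDcard
  omega

/-- There is no minimal counterexample. -/
theorem absurd_config [Group.IsSolvable X] (h : Config S V) : False := by
  classical
  haveI : Fact (Nat.Prime 2) := ⟨Nat.prime_two⟩
  set W := Subgroup.normalClosure (V : Set X) with hW
  set C := Subgroup.centralizer (W : Set X) with hC
  haveI : C.Normal := by rw [hC]; infer_instance
  set N := Subgroup.normalizer (V : Set X) with hN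
  have hVW : V ≤ W := Subgroup.subset_normalClosure
  have hCN : C ≤ N := (Subgroup.centralizer_le hVW).trans (Subgroup.centralizer_le_normalizer _)
  set J := thompsonSubgroupOf 2 (S : Subgroup X) with hJ
  by_cases hall : ∀ A ∈ CfsgLib.LocalP.maxElemIn 2 (S : Subgroup X), A ≤ C
  · have hJC : J ≤ (S : Subgroup X) ⊓ C := by
      refine le_inf (CfsgLib.LocalP.thompsonSubgroupOf_le _) ?_
      rw [hJ, CfsgLib.LocalP.thompsonSubgroupOf_eq_sSup]
      exact sSup_le hall
    apply h.hN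
    rw [eq_top_iff, ← CfsgLib.GlaubermanZJ.normalizer_inf_sup_eq_top S C]
    refine sup_le ?_ hCN
    refine le_trans ?_ h.hJN
    rw [← CfsgLib.LocalP.thompsonSubgroupOf_eq_of_le (inf_le_left : (S : Subgroup X) ⊓ C ≤ S) hJC]
    exact CfsgLib.LocalP.le_normalizer_thompsonSubgroupOf _
  push Not at hall
  obtain ⟨A0, hA0, hA0C⟩ := hall
  haveI : Fintype (Subgroup X) := Fintype.ofFinite _
  obtain ⟨A, hA', hmax⟩ := Finset.exists_max_image
    (Finset.univ.filter fun A : Subgroup X =>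
      A ∈ CfsgLib.LocalP.maxElemIn 2 (S : Subgroup X) ∧ ¬ A ≤ C)
    (fun A => Nat.card ↥(A ⊓ pCore 2 X)) ⟨A0, by simp [hA0, hA0C]⟩
  simp only [Finset.mem_filter, Finset.mem_univ, true_and] at hA' hmax
  obtain ⟨hA, hAC⟩ := hA'
  have hAel := Elem.of_isElementaryAbelian hA.2.1
  have hAQ : ¬ A ≤ pCore 2 X := by
    intro hAQ
    apply hAC
    intro a ha
    refine Subgroup.mem_centralizer_iff.2 fun w hw => ?_
    have hle : W ≤ Subgroup.centralizer ({a} : Set X) := by
      rw [hW, Subgroup.normalClosure, Subgroup.closure_le]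
      intro w hw
      obtain ⟨v, hv, hvw⟩ := Group.mem_conjugatesOfSet_iff.1 hw
      obtain ⟨g, rfl⟩ := isConj_iff.1 hvw
      set A' := A.map (MulAut.conj g⁻¹).toMonoidHom with hA'
      have hA'max : A' ∈ CfsgLib.LocalP.maxElemIn 2 (S : Subgroup X) := by
        refine ⟨?_, CfsgLib.LocalP.isElementaryAbelian_map _ hA.2.1, fun E hE hEel => ?_⟩
        · rintro _ ⟨z, hz, rfl⟩
          have := core_conj_mem_sylow (S := S) (g := g) (hAQ hz)
          simpa using this
        · rw [hA', Subgroup.card_map_of_injective (MulAut.conj g⁻¹).injective]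
          exact hA.2.2 E hE hEel
      have hJA : A' ≤ J := by
        rw [hJ, CfsgLib.LocalP.thompsonSubgroupOf_eq_sSup]
        exact le_sSup hA'max
      have h1 : Commute (g⁻¹ * a * g) v := h.hJV _ (hJA ⟨a, ha, by simp⟩) v hv
      have h2 := h1.map (MulAut.conj g).toMonoidHom
      exact Subgroup.mem_centralizer_singleton_iff.2 (by
        simpa [mul_assoc, Commute, SemiconjBy] using h2.symm)
    exact Subgroup.mem_centralizer_singleton_iff.1 (hle hw)
  refine hAQ (gen h A hA.1 hAel fun B t k x hBA htA hAQB hsup hkB htB hxB hinv hodd hxcomm => ?_)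
  by_cases hcase : ∀ c ∈ modCent B, ∀ b ∈ B, ∀ v ∈ V, Commute b (c * v * c⁻¹)
  · exact case_commute h hA hBA htA hsup htB hxB hinv hodd hcase
  push Not at hcase
  obtain ⟨c, hc, b0, hb0, v, hv, hne⟩ := hcase
  obtain ⟨b, hb, hbfix, hWA, hWb⟩ := exists_better h hA
    (fun A' hA'1 hA'2 => hmax A' ⟨hA'1, hA'2⟩) hBA htA hsup hAQB hc hb0 hv hne
  exact hCN (case_move h hAel (hBA hb) htA (mem_modCent.1 hxB b hb) hinv hodd hxcomm hbfix hWA hWb)

end Config

/-- The normality theorem, by induction on the order of the group. -/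
theorem normal_of_sqBound (N : ℕ) : ∀ {X : Type*} [Group X] [Finite X] [Group.IsSolvable X],
    Nat.card X = N → ¬ Cfsg.Involves (Equiv.Perm (Fin 4)) X →
    Subgroup.centralizer ((pCore 2 X : Subgroup X) : Set X) ≤ pCore 2 X →
    ∀ (S : Sylow 2 X) (V : Subgroup X), V ≤ (S : Subgroup X) → Elem V →
      (∀ j ∈ thompsonSubgroupOf 2 (S : Subgroup X), ∀ v ∈ V, j * v = v * j) →
      (S : Subgroup X) ≤ Subgroup.normalizer (V : Set X) →
      Subgroup.normalizer (thompsonSubgroupOf 2 (S : Subgroup X) : Set X) ≤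
        Subgroup.normalizer (V : Set X) →
      SqBound (S : Subgroup X) V → Subgroup.normalizer (V : Set X) = ⊤ := by
  induction N using Nat.strong_induction_on with
  | _ N ih =>
  intro X _ _ _ hN hS4 hself S V hVS hV hJV hSN hJN hb
  haveI : Fact (Nat.Prime 2) := ⟨Nat.prime_two⟩
  by_contra hne
  refine Config.absurd_config (S := S) (V := V)
    ⟨hS4, hself, hVS, hV, hJV, hSN, hJN, hb, hne, fun H hSH hH => ?_⟩
  have hlt : Nat.card H < N := hN ▸ lt_of_le_of_ne (Subgroup.card_le_card_group H)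
    fun e => hH (Subgroup.eq_top_of_card_eq H e)
  have hselfH := CfsgLib.LocalP.charP_of_normalized hself H
    (((CfsgLib.CharP.pCore_le_sylow S).trans hSH).trans Subgroup.le_normalizer)
  set SH : Sylow 2 H := S.subtype hSH with hSHdef
  have hmapS : (SH : Subgroup H).map H.subtype = (S : Subgroup X) := by
    rw [hSHdef, Sylow.coe_subtype, Subgroup.map_subgroupOf_eq_of_le hSH]
  have hmapV : (V.subgroupOf H).map H.subtype = V :=
    Subgroup.map_subgroupOf_eq_of_le (hVS.trans hSH)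
  have hJ : thompsonSubgroupOf 2 (S : Subgroup X) =
      (thompsonSubgroupOf 2 (SH : Subgroup H)).map H.subtype := by
    rw [← hmapS, CfsgLib.LocalP.thompsonSubgroupOf_map _ H.subtype_injective]
  have hnorm : ∀ z : H, (z : X) ∈ Subgroup.normalizer (V : Set X) ↔
      z ∈ Subgroup.normalizer (V.subgroupOf H : Set H) := by
    intro z
    constructor
    · intro hz
      exact mem_normalizer_of_forall fun v hv => conj_mem_of_mem_normalizer hz hv
    · intro hz
      exact mem_normalizer_of_forall fun v hv =>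
        conj_mem_of_mem_normalizer hz (m := ⟨v, hSH (hVS hv)⟩) hv
  have htop := ih _ hlt (X := H) rfl (fun h' => hS4 (CfsgLib.Offender.involves_of_subgroup H h'))
    hselfH SH (V.subgroupOf H) (fun v hv => by rw [hSHdef, Sylow.coe_subtype]; exact hVS hv)
    ⟨fun a ha b hb => Subtype.ext (hV.comm _ ha _ hb), fun a ha => Subtype.ext (hV.sq _ ha)⟩
    (fun j hj v hv => Subtype.ext (hJV _ (hJ ▸ ⟨j, hj, rfl⟩) _ hv))
    (fun z hz => (hnorm z).1 (hSN (by rw [← hmapS]; exact ⟨z, hz, rfl⟩)))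
    (fun z hz => (hnorm z).1 (hJN (mem_normalizer_of_forall fun j hj => by
      rw [hJ] at hj ⊢
      obtain ⟨j, hj', rfl⟩ := hj
      exact ⟨z * j * z⁻¹, conj_mem_of_mem_normalizer hz hj', rfl⟩)))
    (SqBound.of_map H.subtype H.subtype_injective (by rw [hmapS, hmapV]; exact hb))
  intro z hz
  exact (hnorm ⟨z, hz⟩).2 (htop.ge (Subgroup.mem_top _))

end CfsgLib.SolvableSFour
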