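import Mathlib
import Cfsg.Agent.Eq.Def_Solvable
import Cfsg.Agent.Offender.Basic
import Cfsg.Agent.Constrained.Fitting
import Cfsg.Agent.SolvableSFour.Action

/-!
The square bound `|E|² |C_V(E)| ≤ |V| |C_E(V)|²` for solvable groups without sections of the
symmetric group of degree four.
-/

set_option autoImplicit false

namespace CfsgLib.SolvableSFour

open Cfsg CfsgLib.Offender

/-- The linear square bound, assuming that inverted elements of odd order act trivially on invariant
subgroups in which the inverting involution fixes a hyperplane. -/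
theorem card_sq_mul_fixed_le {Y W : Type*} [Group Y] [CommGroup W] [Finite Y] [Finite W]
    (φ : Y →* MulAut W) (hφ : Function.Injective φ)
    (hW : ∀ w : W, w * w = 1) {K : Subgroup Y} (hK : Odd (Nat.card K))
    (hT2 : ∀ (a x : Y) (U : Subgroup W), a * a = 1 → a * x * a⁻¹ = x⁻¹ → Odd (orderOf x) →
      (∀ u ∈ U, φ a u ∈ U) → (∀ u ∈ U, φ x u ∈ U) →
      (∀ u ∈ U, ∀ v ∈ U, φ a u ≠ u → φ a v ≠ v → φ a (u * v) = u * v) → ∀ u ∈ U, φ x u = u) :
    ∀ (n : ℕ) (A : Subgroup Y), Nat.card A = n → (∀ a ∈ A, ∀ b ∈ A, a * b = b * a) →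
      (∀ a ∈ A, a * a = 1) → A ≤ Subgroup.normalizer (K : Set Y) →
      A ⊓ Subgroup.centralizer (K : Set Y) = ⊥ →
      Nat.card A ^ 2 * Nat.card (fixedSub φ A) ≤ Nat.card W := by
  classical
  haveI : Fact (Nat.Prime 2) := ⟨Nat.prime_two⟩
  intro n
  induction n using Nat.strong_induction_on with
  | _ n ih =>
  intro A hn hcomm hexp hAK hfaith
  by_cases hA : A = ⊥
  · subst hA
    rw [Subgroup.card_bot, one_pow, one_mul]
    exact Nat.card_le_card_of_injective _ Subtype.val_injective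
  haveI hAc : IsMulCommutative A := ⟨⟨fun a b => Subtype.ext (hcomm a a.2 b b.2)⟩⟩
  have hA2 : IsPGroup 2 A := fun a => ⟨1, Subtype.ext (by simpa [sq] using hexp a a.2)⟩
  have hcop : (Nat.card A).Coprime (Nat.card K) := by
    obtain ⟨k, hk⟩ := IsPGroup.iff_card.1 hA2
    rw [hk]
    exact (Nat.coprime_two_left.2 hK).pow_left k
  -- a hyperplane whose centraliser in `K` is not centralised by `A`
  obtain ⟨B, a, haA, hBA, hsup, y, hyK, hyB, hya⟩ :
      ∃ (B : Subgroup Y) (a : Y), a ∈ A ∧ B ≤ A ∧ B ⊔ Subgroup.zpowers a = A ∧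
        ∃ y ∈ K, (∀ b ∈ B, b * y = y * b) ∧ a * y ≠ y * a := by
    by_contra hcon
    push Not at hcon
    refine hA (eq_bot_iff.2 fun b hb => hfaith.le ⟨hb, ?_⟩)
    have hle : K ≤ Subgroup.centralizer (A : Set Y) := by
      refine CfsgLib.Coprime.le_of_cocyclic hAc hAK hcop fun B hBA ⟨a, haA, hsup⟩ y hy => ?_
      have hyB : ∀ b ∈ B, b * y = y * b := fun b hb => Subgroup.mem_centralizer_iff.1 hy.2 b hb
      have hya := hcon B a haA hBA hsup y hy.1 hyB
      have : B ⊔ Subgroup.zpowers a ≤ Subgroup.centralizer ({y} : Set Y) :=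
        sup_le (fun c hc => Subgroup.mem_centralizer_singleton_iff.2 (hyB c hc))
          (Subgroup.zpowers_le.2 (Subgroup.mem_centralizer_singleton_iff.2 hya))
      rw [hsup] at this
      exact Subgroup.mem_centralizer_iff.2 fun c hc =>
        Subgroup.mem_centralizer_singleton_iff.1 (this hc)
    exact Subgroup.mem_centralizer_iff.2 fun k hk =>
      (Subgroup.mem_centralizer_iff.1 (hle hk) b hb).symm
  have haa : a⁻¹ = a := inv_eq_of_mul_eq_one_right (hexp a haA)
  have haB : a ∉ B := fun h => hya (hyB a h)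
  -- the inverted element
  obtain ⟨x, hxK, hxB, hx1, hax⟩ :
      ∃ x ∈ K, (∀ b ∈ B, b * x = x * b) ∧ x ≠ 1 ∧ a * x * a⁻¹ = x⁻¹ := by
    refine ⟨y⁻¹ * (a * y * a⁻¹), mul_mem (inv_mem hyK)
      ((Subgroup.mem_normalizer_iff.1 (hAK haA) y).1 hyK), fun b hb => ?_, ?_, ?_⟩
    · have h1 : b * a = a * b := hcomm b (hBA hb) a haA
      have h2 : Commute b y := hyB b hb
      exact ((h2.inv_right).mul_right (((show Commute b a from h1).mul_right h2).mul_right
        (show Commute b a from h1).inv_right)).eq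
    · intro h
      apply hya
      have h' : a * y * a⁻¹ = y := by rwa [inv_mul_eq_one, eq_comm] at h
      calc a * y = a * y * a⁻¹ * a := by group
        _ = y * a := by rw [h']
    · simp [haa, mul_inv_rev, mul_assoc, hexp a haA]
  have hxodd : Odd (orderOf x) := hK.of_dvd_nat (K.orderOf_dvd_natCard hxK)
  -- the induction hypothesis
  have hBlt : Nat.card B < n := by
    rcases eq_or_lt_of_le hBA with h | h
    · exact absurd (h ▸ haA) haB
    · exact hn ▸ lt_of_le_of_ne (Subgroup.card_le_of_le hBA)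
        (fun e => h.ne (Subgroup.eq_of_le_of_card_ge hBA e.ge))
  have ihle := ih _ hBlt B rfl (fun c hc d hd => hcomm c (hBA hc) d (hBA hd))
    (fun c hc => hexp c (hBA hc)) (hBA.trans hAK)
    (eq_bot_iff.2 fun c hc => hfaith.le ⟨hBA hc.1, hc.2⟩)
  have hcard : Nat.card A ≤ 2 * Nat.card B := by
    have hmem : ∀ c ∈ A, c ∈ B ∨ c * a ∈ B := by
      intro c hc
      rw [← hsup] at hc
      haveI : IsMulCommutative (B ⊔ Subgroup.zpowers a : Subgroup Y) := hsup.symm ▸ hAc
      haveI hN : (B.subgroupOf A).Normal := inferInstance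
      have hz : Subgroup.zpowers a ≤ Subgroup.normalizer (B : Set Y) := by
        refine Subgroup.zpowers_le.2 (Subgroup.centralizer_le_normalizer _ ?_)
        exact Subgroup.mem_centralizer_iff.2 fun b hb => hcomm b (hBA hb) a haA
      have hc' : c ∈ ((B ⊔ Subgroup.zpowers a : Subgroup Y) : Set Y) := hc
      rw [Subgroup.coe_mul_of_right_le_normalizer_left B (Subgroup.zpowers a) hz] at hc'
      obtain ⟨b, hb, _, ⟨i, rfl⟩, rfl⟩ := hc'
      rcases Int.even_or_odd i with ⟨k, rfl⟩ | ⟨k, rfl⟩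
      · left
        have : a ^ (k + k) = 1 := by rw [← two_mul, zpow_mul, zpow_two, hexp a haA, one_zpow]
        simp only [this, mul_one]
        exact hb
      · right
        have : a ^ (2 * k + 1) = a := by
          rw [zpow_add, zpow_mul, zpow_two, hexp a haA, one_zpow, one_mul, zpow_one]
        simp only [this, mul_assoc, hexp a haA, mul_one]
        exact hb
    let f : A → B ⊕ B := fun c =>
      if h : (c : Y) ∈ B then .inl ⟨c, h⟩ else .inr ⟨c * a, (hmem c c.2).resolve_left h⟩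
    have hf : Function.Injective f := by
      intro c d h
      simp only [f] at h
      split_ifs at h with h1 h2 h2
      · exact Subtype.ext (congrArg Subtype.val (Sum.inl_injective h) :)
      · exact Subtype.ext (mul_right_cancel (congrArg Subtype.val (Sum.inr_injective h)))
    have := Nat.card_le_card_of_injective f hf
    rwa [Nat.card_sum, ← two_mul] at this
  set U := fixedSub φ B with hUdef
  have hstab : ∀ c, (∀ b ∈ B, b * c = c * b) → ∀ u ∈ U, φ c u ∈ U := fun c hc u hu b hb => by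
    rw [← MulAut.mul_apply, ← map_mul, hc b hb, map_mul, MulAut.mul_apply, hu b hb]
  have hfA : ∀ u ∈ U, φ a u = u → u ∈ fixedSub φ A := by
    intro u hu hua c hc
    have hle : A ≤ (MulAction.stabilizer (MulAut W) u).comap φ := by
      rw [← hsup]
      exact sup_le (fun b hb => hu b hb) (Subgroup.zpowers_le.2 hua)
    exact hle hc
  have hW2 : IsPGroup 2 W := fun w => ⟨1, by rw [pow_one, sq, hW]⟩
  have h4 : 4 * Nat.card (fixedSub φ A) ≤ Nat.card U := by
    by_contra hlt
    obtain ⟨k, hk⟩ := Subgroup.card_dvd_of_le (fixedSub_mono φ hBA)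
    rw [← hUdef] at hk
    have hk4 : k < 4 := by
      by_contra h
      exact hlt (hk ▸ (mul_comm 4 _).le.trans (Nat.mul_le_mul le_rfl (by omega)))
    have hk3 : k ≠ 3 := by
      rintro rfl
      obtain ⟨j, hj⟩ := IsPGroup.iff_card.1 (hW2.to_subgroup U)
      have h3 : 3 ∣ 2 ^ j := hj ▸ hk ▸ Dvd.intro_left _ rfl
      exact absurd (Nat.prime_three.dvd_of_dvd_pow h3) (by norm_num)
    have hrel : ((fixedSub φ A).subgroupOf U).index ≤ 2 := by
      have h3 := Subgroup.relIndex_mul_relIndex ⊥ (fixedSub φ A) U bot_le (fixedSub_mono φ hBA)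
      simp only [Subgroup.relIndex_bot_left] at h3
      rw [hk] at h3
      exact (Nat.eq_of_mul_eq_mul_left Nat.card_pos h3).le.trans (by omega)
    have hpairs : ∀ u ∈ U, ∀ v ∈ U, φ a u ≠ u → φ a v ≠ v → φ a (u * v) = u * v := by
      intro u hu v hv hua hva
      have hmem : ∀ w (hw : w ∈ U), (⟨w, hw⟩ : U) ∈ (fixedSub φ A).subgroupOf U → φ a w = w :=
        fun w hw h => (h : w ∈ fixedSub φ A) a haA
      rcases (show ((fixedSub φ A).subgroupOf U).index = 1 ∨ ((fixedSub φ A).subgroupOf U).index = 2 by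
        have := Subgroup.index_ne_zero_of_finite (H := (fixedSub φ A).subgroupOf U); omega) with h | h
      · exact absurd (hmem u hu (Subgroup.index_eq_one.1 h ▸ Subgroup.mem_top _)) hua
      · exact hmem (u * v) (mul_mem hu hv) ((Subgroup.mul_mem_iff_of_index_two h
          (a := ⟨u, hu⟩) (b := ⟨v, hv⟩)).2 (iff_of_false (fun h' => hua (hmem u hu h'))
          fun h' => hva (hmem v hv h')))
    have hxU := hT2 a x U (hexp a haA) hax hxodd
      (hstab a fun b hb => hcomm b (hBA hb) a haA) (hstab x hxB) hpairs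
    let d : W →* W := MonoidHom.mk' (fun u => φ x u * u) fun u v => by
      rw [map_mul]; exact mul_mul_mul_comm _ _ _ _
    have hD : d.range ≠ ⊥ := by
      intro h
      refine hx1 (hφ ?_)
      ext w
      have hw : φ x w * w = 1 := (Subgroup.eq_bot_iff_forall _).1 h (d w) ⟨w, rfl⟩
      rw [map_one, MulAut.one_apply]
      exact mul_right_cancel (hw.trans (hW w).symm)
    obtain ⟨u, hu, hu1, huB⟩ := exists_fixed_ne_one φ (hA2.to_le hBA) hW hD (by
      rintro b hb _ ⟨v, rfl⟩
      refine ⟨φ b v, ?_⟩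
      show φ x (φ b v) * φ b v = φ b (φ x v * v)
      rw [map_mul, ← MulAut.mul_apply, ← map_mul, ← hxB b hb, map_mul, MulAut.mul_apply])
    obtain ⟨v, rfl⟩ := hu
    exact hu1 (eq_one_of_fixed_of_image φ hW hxodd rfl (hxU _ huB))
  calc Nat.card A ^ 2 * Nat.card (fixedSub φ A)
      ≤ (2 * Nat.card B) ^ 2 * Nat.card (fixedSub φ A) := by gcongr
    _ = Nat.card B ^ 2 * (4 * Nat.card (fixedSub φ A)) := by ring
    _ ≤ Nat.card B ^ 2 * Nat.card U := Nat.mul_le_mul le_rfl h4
    _ ≤ _ := ihle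

/-- The square bound on a normal elementary 2-subgroup. -/
theorem square_bound {G : Type*} [Group G] [Finite G] [Group.IsSolvable G]
    (hS4 : ¬ Cfsg.Involves (Equiv.Perm (Fin 4)) G) (V : Subgroup G) [V.Normal] (hV : Elem V)
    (hO2 : ∀ T : Subgroup G, T.Normal → Subgroup.centralizer (V : Set G) ≤ T →
      (∃ k : ℕ, (Subgroup.centralizer (V : Set G)).relIndex T = 2 ^ k) →
      T ≤ Subgroup.centralizer (V : Set G))
    (E : Subgroup G)
    (hEc : ∀ a ∈ E, ∀ b ∈ E, a * b * a⁻¹ * b⁻¹ ∈ Subgroup.centralizer (V : Set G))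
    (hEsq : ∀ a ∈ E, a * a ∈ Subgroup.centralizer (V : Set G)) :
    Nat.card E ^ 2 * Nat.card ↥(V ⊓ Subgroup.centralizer (E : Set G)) ≤
      Nat.card V * Nat.card ↥(E ⊓ Subgroup.centralizer (V : Set G)) ^ 2 := by
  classical
  haveI : Fact (Nat.Prime 2) := ⟨Nat.prime_two⟩
  set C := Subgroup.centralizer (V : Set G) with hC
  letI : CommGroup V := { (inferInstance : Group V) with
    mul_comm := fun a b => Subtype.ext (hV.comm a a.2 b b.2) }
  have hW : ∀ w : V, w * w = 1 := fun w => Subtype.ext (hV.sq w w.2)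
  set φ : G →* MulAut V := MulAut.conjNormal with hφ
  set f := φ.rangeRestrict with hf
  set ψ : φ.range →* MulAut V := φ.range.subtype with hψ
  have hker : f.ker = C := by
    ext g
    rw [hf, MonoidHom.ker_rangeRestrict, MonoidHom.mem_ker, hC, Subgroup.mem_centralizer_iff]
    constructor
    · intro h w hw
      have : (φ g ⟨w, hw⟩ : G) = w := by rw [h]; rfl
      rw [hφ, MulAut.conjNormal_apply] at this
      calc w * g = g * w * g⁻¹ * g := by rw [this]
        _ = g * w := by group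
    · intro h
      ext w
      show (φ g w : G) = w
      rw [hφ, MulAut.conjNormal_apply, ← h w w.2, mul_inv_cancel_right]
  have hfs : Function.Surjective f := φ.rangeRestrict_surjective
  haveI : Group.IsSolvable φ.range := Group.isSolvable_of_surjective hfs
  -- `O₂` of the image is trivial
  have hcore : pCore 2 φ.range = ⊥ := by
    have h1 := CfsgLib.Constrained.isPGroup_pCore (p := 2) (G := φ.range)
    obtain ⟨k, hk⟩ := IsPGroup.iff_card.1 h1
    haveI : (pCore 2 φ.range).Normal := inferInstance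
    have hle : C ≤ (pCore 2 φ.range).comap f := hker ▸ Subgroup.ker_le_comap f _
    have hrel : C.relIndex ((pCore 2 φ.range).comap f) = 2 ^ k := by
      rw [← hker, Subgroup.relIndex_ker, Subgroup.map_comap_eq_self_of_surjective hfs, hk]
    have h2 := hO2 _ inferInstance hle ⟨k, hrel⟩
    rw [eq_bot_iff, ← Subgroup.map_comap_eq_self_of_surjective hfs (pCore 2 φ.range), Subgroup.map_le_iff_le_comap]
    intro g hg
    rw [Subgroup.mem_comap, Subgroup.mem_bot, ← MonoidHom.mem_ker, hker]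
    exact h2 hg
  set K := fittingSubgroup φ.range with hK
  haveI hKn : K.Normal := Subgroup.sSup_normal _ fun N hN => hN.1
  have hKodd : Odd (Nat.card K) := by
    rw [Nat.odd_iff]
    by_contra h
    obtain ⟨P2⟩ : Nonempty (Sylow 2 K) := inferInstance
    have h1 := CfsgLib.Constrained.map_sylow_le_pCore hKn CfsgLib.Constrained.isNilpotent_fitting P2
    rw [hcore, le_bot_iff, Subgroup.map_eq_bot_iff_of_injective _ K.subtype_injective] at h1
    have h2 := P2.not_dvd_index
    rw [h1, Subgroup.index_bot] at h2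
    omega
  set A' := E.map f with hA'
  have hA'faith : A' ⊓ Subgroup.centralizer (K : Set φ.range) = ⊥ := by
    rw [eq_bot_iff]
    rintro x ⟨⟨a, ha, rfl⟩, hx⟩
    have hxK : f a ∈ K := CfsgLib.Constrained.centralizer_fitting_le hx
    refine Subgroup.mem_bot.2 (orderOf_eq_one_iff.1 ?_)
    have h1 : orderOf (f a) ∣ 2 := orderOf_dvd_of_pow_eq_one (by rw [← map_pow, sq, ← MonoidHom.mem_ker, hker]; exact hEsq a ha)
    have h2 := K.orderOf_dvd_natCard hxK
    exact Nat.eq_one_of_dvd_coprimes (Nat.coprime_two_left.2 hKodd) h1 h2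
  have hE1 : ∀ z ∈ C, f z = 1 := fun z hz => MonoidHom.mem_ker.1 (hker ▸ hz)
  have hT2 : ∀ (a x : φ.range) (U : Subgroup V), a * a = 1 → a * x * a⁻¹ = x⁻¹ →
      Odd (orderOf x) → (∀ u ∈ U, ψ a u ∈ U) → (∀ u ∈ U, ψ x u ∈ U) →
      (∀ u ∈ U, ∀ v ∈ U, ψ a u ≠ u → ψ a v ≠ v → ψ a (u * v) = u * v) →
      ∀ u ∈ U, ψ x u = u := by
    intro a x U haa hinv hodd haU hxU hpairs u hu
    obtain ⟨e, rfl⟩ := hfs a
    obtain ⟨g, rfl⟩ := hfs x
    set U' := U.map V.subtype with hU'
    have hU'V : U' ≤ V := Subgroup.map_subtype_le _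
    have hval : ∀ (z : G) (w : V), ((ψ (f z)) w : G) = z * w * z⁻¹ := fun z w =>
      MulAut.conjNormal_apply z w
    have hnorm : ∀ z : G, (∀ w ∈ U, ψ (f z) w ∈ U) → z ∈ Subgroup.normalizer (U' : Set G) := by
      intro z hz
      refine Subgroup.mem_normalizer_iff_map_conj_eq.2 (Subgroup.eq_of_le_of_card_ge ?_
        (Subgroup.card_map_of_injective (MulAut.conj z).injective).ge)
      rintro _ ⟨_, ⟨w, hw, rfl⟩, rfl⟩
      exact ⟨ψ (f z) w, hz w hw, hval z w⟩
    have hcent : ∀ z : G, f z = 1 → z ∈ Subgroup.centralizer (U' : Set G) := fun z hz =>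
      Subgroup.centralizer_le hU'V (hker.le (MonoidHom.mem_ker.2 hz))
    have hfix : ∀ (z : G) (w : V), Commute z w ↔ ψ (f z) w = w := fun z w => by
      refine ⟨fun h => Subtype.ext (by rw [hval, h.eq, mul_inv_cancel_right]), fun h => ?_⟩
      have h2 := congrArg Subtype.val h
      rw [hval] at h2
      exact mul_inv_eq_iff_eq_mul.1 h2
    have hgC := index_two_trivial (M := U') (g := g) (e := e) hS4 (hV.mono hU'V) (hnorm g hxU)
      (hnorm e haU) (hcent _ (by rw [map_mul, haa]))
      (hcent _ (by simp only [map_mul, map_inv]; rw [hinv, inv_mul_cancel]))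
      hodd (hcent _ (by rw [map_pow, pow_orderOf_eq_one])) ?_
    · exact (hfix g u).1 (commute_of_mem_centralizer hgC ⟨u, hu, rfl⟩)
    · rintro _ ⟨w, hw, rfl⟩ _ ⟨w', hw', rfl⟩ h1 h2
      exact (hfix e (w * w')).2 (hpairs w hw w' hw' (fun h => h1 ((hfix e w).2 h))
        fun h => h2 ((hfix e w').2 h))
  have hbound := card_sq_mul_fixed_le ψ φ.range.subtype_injective hW hKodd hT2 _ A' rfl
    (by
      rintro _ ⟨a, ha, rfl⟩ _ ⟨b, hb, rfl⟩
      have h1 := hE1 _ (hEc a ha b hb)
      simp only [map_mul, map_inv] at h1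
      calc f a * f b = f a * f b * (f a)⁻¹ * (f b)⁻¹ * (f b * f a) := by group
        _ = f b * f a := by rw [h1, one_mul])
    (by
      rintro _ ⟨a, ha, rfl⟩
      rw [← map_mul]
      exact hE1 _ (hEsq a ha))
    (by rw [Subgroup.normalizer_eq_top]; exact le_top) hA'faith
  have hcardE : Nat.card E = Nat.card ↥(E ⊓ C) * Nat.card A' := by
    have h1 := Subgroup.relIndex_mul_relIndex ⊥ (E ⊓ C) E bot_le inf_le_left
    simp only [Subgroup.relIndex_bot_left] at h1
    rw [Subgroup.inf_relIndex_left, ← hker, Subgroup.relIndex_ker] at h1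
    rw [← hker]; exact h1.symm
  have hfixE : Nat.card ↥(V ⊓ Subgroup.centralizer (E : Set G)) ≤ Nat.card (fixedSub ψ A') := by
    refine Nat.card_le_card_of_injective (fun x => ⟨⟨x.1, x.2.1⟩, ?_⟩ :
      ↥(V ⊓ Subgroup.centralizer (E : Set G)) → fixedSub ψ A') ?_
    · rintro _ ⟨a, ha, rfl⟩
      refine Subtype.ext ?_
      show ((φ a) ⟨x.1, x.2.1⟩ : G) = x.1
      rw [hφ, MulAut.conjNormal_apply, Subgroup.mem_centralizer_iff.1 x.2.2 a ha,
        mul_inv_cancel_right]
    · intro x y h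
      exact Subtype.ext (congrArg (fun t : fixedSub ψ A' => ((t : V) : G)) h)
  calc Nat.card E ^ 2 * Nat.card ↥(V ⊓ Subgroup.centralizer (E : Set G))
      ≤ Nat.card E ^ 2 * Nat.card (fixedSub ψ A') := Nat.mul_le_mul le_rfl hfixE
    _ = Nat.card ↥(E ⊓ C) ^ 2 * (Nat.card A' ^ 2 * Nat.card (fixedSub ψ A')) := by rw [hcardE]; ring
    _ ≤ Nat.card ↥(E ⊓ C) ^ 2 * Nat.card V := Nat.mul_le_mul le_rfl hbound
    _ = _ := mul_comm _ _

end CfsgLib.SolvableSFour
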