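import Mathlib
import Cfsg.Agent.Eq.Def_Solvable
import Cfsg.Agent.Eq.Def_Transfer
import Cfsg.Agent.Eq.Def_CaseTheorems
import Cfsg.Agent.Eq.Def_Involutions
import Cfsg.Agent.Offender.SolvableFactor
import Cfsg.Agent.Signalizer.Transitivity
import Cfsg.Agent.StronglyEmbedded.Criteria
import Cfsg.Agent.LocalCharP.StronglyEmbedded
import Cfsg.Agent.SolvableSFour.SquareBound
import Cfsg.Agent.SolvableSFour.AmalgamMain

/-!
Uniqueness of the maximal 2-local subgroup over a Sylow 2-subgroup when all 2-local subgroups are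
solvable, of characteristic two and without sections of the symmetric group of degree four.
-/

set_option autoImplicit false

namespace CfsgLib.SolvableSFour

open Cfsg

/-- The elements of order at most two in the centre of `R`. -/
def omegaCenter {X : Type*} [Group X] (R : Subgroup X) : Subgroup X where
  carrier := {z | z ∈ R ⊓ Subgroup.centralizer (R : Set X) ∧ z * z = 1}
  one_mem' := ⟨one_mem _, one_mul _⟩
  mul_mem' := fun {a b} ha hb => ⟨mul_mem ha.1 hb.1, by
    have h : b * a = a * b := Subgroup.mem_centralizer_iff.1 ha.1.2 b hb.1.1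
    rw [show a * b * (a * b) = a * (b * a) * b by group, h,
      show a * (a * b) * b = (a * a) * (b * b) by group, ha.2, hb.2, one_mul]⟩
  inv_mem' := fun {a} ha => ⟨inv_mem ha.1, by rw [← mul_inv_rev, ha.2, inv_one]⟩

variable {X : Type*} [Group X]

theorem mem_omegaCenter {R : Subgroup X} {z : X} :
    z ∈ omegaCenter R ↔ z ∈ R ⊓ Subgroup.centralizer (R : Set X) ∧ z * z = 1 := Iff.rfl

theorem omegaCenter_le (R : Subgroup X) : omegaCenter R ≤ R := fun _ hz => hz.1.1

theorem omegaCenter_map {Y : Type*} [Group Y] (f : X →* Y) (hf : Function.Injective f)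
    (R : Subgroup X) : omegaCenter (R.map f) = (omegaCenter R).map f := by
  ext y
  rw [mem_omegaCenter, ← map_inf_centralizer_of_injective f hf]
  constructor
  · rintro ⟨⟨z, hz, rfl⟩, hy⟩
    exact ⟨z, ⟨hz, hf (by rw [map_mul, hy, map_one])⟩, rfl⟩
  · rintro ⟨z, ⟨hz, hz2⟩, rfl⟩
    exact ⟨⟨z, hz, rfl⟩, by rw [← map_mul, hz2, map_one]⟩

variable [Finite X]

theorem omegaCenter_ne_bot {R : Subgroup X} (hR : IsPGroup 2 R) (hne : R ≠ ⊥) :
    omegaCenter R ≠ ⊥ := by
  haveI : Fact (Nat.Prime 2) := ⟨Nat.prime_two⟩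
  haveI : Nontrivial R := (Subgroup.nontrivial_iff_ne_bot R).2 hne
  haveI := hR.center_nontrivial
  obtain ⟨m, hm, hcard⟩ := (hR.to_subgroup (Subgroup.center R)).nontrivial_iff_card.1 inferInstance
  obtain ⟨z, hz⟩ := exists_prime_orderOf_dvd_card' (G := Subgroup.center R) 2
    (hcard ▸ dvd_pow_self 2 hm.ne')
  intro hbot
  have h1 : (((z : R) : X)) ∈ omegaCenter R := by
    refine mem_omegaCenter.2 ⟨⟨(z : R).2, Subgroup.mem_centralizer_iff.2 fun r hr =>
      congrArg Subtype.val (Subgroup.mem_center_iff.1 z.2 ⟨r, hr⟩)⟩, ?_⟩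
    have h2 : z * z = 1 := by rw [← pow_two, ← hz, pow_orderOf_eq_one]
    exact congrArg (fun w : Subgroup.center R => ((w : R) : X)) h2
  rw [hbot, Subgroup.mem_bot] at h1
  have h3 : z = 1 := Subtype.ext (Subtype.ext h1)
  rw [h3, orderOf_one] at hz
  omega

/-- The normal closure of `Ω₁Z(R)` for a Sylow subgroup `R` in characteristic two. -/
theorem closure_props (hself : Subgroup.centralizer ((pCore 2 X : Subgroup X) : Set X) ≤ pCore 2 X)
    (R : Sylow 2 X) :
    Elem (Subgroup.normalClosure (omegaCenter (R : Subgroup X) : Set X)) ∧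
      Subgroup.normalClosure (omegaCenter (R : Subgroup X) : Set X) ≤ (R : Subgroup X) ∧
      ∀ T : Subgroup X, T.Normal →
        Subgroup.centralizer ((Subgroup.normalClosure (omegaCenter (R : Subgroup X) : Set X) :
          Subgroup X) : Set X) ≤ T →
        (∃ k : ℕ, (Subgroup.centralizer ((Subgroup.normalClosure
          (omegaCenter (R : Subgroup X) : Set X) : Subgroup X) : Set X)).relIndex T = 2 ^ k) →
        T ≤ Subgroup.centralizer ((Subgroup.normalClosure (omegaCenter (R : Subgroup X) : Set X) :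
          Subgroup X) : Set X) := by
  haveI : Fact (Nat.Prime 2) := ⟨Nat.prime_two⟩
  set Q := pCore 2 X with hQ
  have hQR : Q ≤ (R : Subgroup X) := CfsgLib.CharP.pCore_le_sylow R
  set Z : Set X := (omegaCenter (R : Subgroup X) : Set X) with hZ
  set W0 := Subgroup.normalClosure Z with hW0
  have hconj : ∀ w ∈ Group.conjugatesOfSet Z,
      (w ∈ Q ∧ w * w = 1) ∧ w ∈ Subgroup.centralizer (Q : Set X) := by
    intro w hw
    obtain ⟨z, hz, hzw⟩ := Group.mem_conjugatesOfSet_iff.1 hw
    obtain ⟨g, rfl⟩ := isConj_iff.1 hzw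
    have hzC : z ∈ Subgroup.centralizer (Q : Set X) :=
      Subgroup.centralizer_le hQR (mem_omegaCenter.1 hz).1.2
    refine ⟨⟨(inferInstance : Q.Normal).conj_mem z (hself hzC) g, ?_⟩,
      (inferInstance : (Subgroup.centralizer (Q : Set X)).Normal).conj_mem z hzC g⟩
    rw [show g * z * g⁻¹ * (g * z * g⁻¹) = g * (z * z) * g⁻¹ by group, (mem_omegaCenter.1 hz).2]
    group
  refine ⟨elem_closure (fun a ha b hb =>
      (Subgroup.mem_centralizer_iff.1 (hconj b hb).2 a (hconj a ha).1.1))
      (fun a ha => (hconj a ha).1.2),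
    (Subgroup.closure_le _).2 (fun a ha => hQR (hconj a ha).1.1), fun T hT hle hk => ?_⟩
  haveI := hT
  refine CfsgLib.Offender.le_of_pGroup_image R hle hk Z
    (fun s hs z hz => Subgroup.mem_centralizer_iff.1 (mem_omegaCenter.1 hz).1.2 s hs) fun x => ?_
  constructor
  · intro hx g z hz
    exact (Subgroup.mem_centralizer_iff.1 hx _ (Subgroup.normalClosure_normal.conj_mem z
      (Subgroup.subset_normalClosure hz) g)).symm
  · intro hx
    refine Subgroup.mem_centralizer_iff.2 fun w hw => ?_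
    have hle' : W0 ≤ Subgroup.centralizer ({x} : Set X) := by
      rw [hW0, Subgroup.normalClosure, Subgroup.closure_le]
      intro w hw
      obtain ⟨z, hz, hzw⟩ := Group.mem_conjugatesOfSet_iff.1 hw
      obtain ⟨g, rfl⟩ := isConj_iff.1 hzw
      exact Subgroup.mem_centralizer_singleton_iff.2 (hx g z hz).symm
    exact Subgroup.mem_centralizer_singleton_iff.1 (hle' hw)

/-- Thompson factorization in characteristic two. -/
theorem factor [Group.IsSolvable X] (hS4 : ¬ Cfsg.Involves (Equiv.Perm (Fin 4)) X)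
    (hself : Subgroup.centralizer ((pCore 2 X : Subgroup X) : Set X) ≤ pCore 2 X) (R : Sylow 2 X) :
    Subgroup.centralizer (omegaCenter (R : Subgroup X) : Set X) ⊔
      Subgroup.normalizer (thompsonSubgroupOf 2 (R : Subgroup X) : Set X) = ⊤ := by
  haveI : Fact (Nat.Prime 2) := ⟨Nat.prime_two⟩
  obtain ⟨hel, hle, hO2⟩ := closure_props hself R
  set W0 := Subgroup.normalClosure (omegaCenter (R : Subgroup X) : Set X) with hW0
  have hJC : thompsonSubgroupOf 2 (R : Subgroup X) ≤ Subgroup.centralizer (W0 : Set X) :=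
    CfsgLib.Offender.thompson_le_ker hS4 R W0 hel.comm hel.sq hle hO2
  haveI : (Subgroup.centralizer (W0 : Set X)).Normal := inferInstance
  rw [eq_top_iff, ← CfsgLib.GlaubermanZJ.normalizer_inf_sup_eq_top R (Subgroup.centralizer (W0 : Set X))]
  refine sup_le (le_trans ?_ le_sup_right)
    (le_trans (Subgroup.centralizer_le Subgroup.subset_normalClosure) le_sup_left)
  rw [← CfsgLib.LocalP.thompsonSubgroupOf_eq_of_le
    (Q := (R : Subgroup X) ⊓ Subgroup.centralizer (W0 : Set X)) inf_le_left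
    (le_inf (CfsgLib.LocalP.thompsonSubgroupOf_le _) hJC)]
  exact CfsgLib.LocalP.le_normalizer_thompsonSubgroupOf _

theorem thompsonSubgroupOf_ne_bot {R : Subgroup X} (hR : IsPGroup 2 R) (hne : R ≠ ⊥) :
    thompsonSubgroupOf 2 R ≠ ⊥ := by
  intro hbot
  obtain ⟨A, hA⟩ := CfsgLib.LocalP.exists_maxElemIn (p := 2) R
  obtain ⟨z, hz, hz1⟩ := (Subgroup.bot_or_exists_ne_one _).resolve_left (omegaCenter_ne_bot hR hne)
  obtain ⟨hzR, hz2⟩ := mem_omegaCenter.1 hz
  have hzA := CfsgLib.LocalP.mem_of_centralizes hA hzR.1 (by rw [pow_two, hz2])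
    fun a ha => Subgroup.mem_centralizer_iff.1 hzR.2 a (hA.1 ha)
  have hle : A ≤ thompsonSubgroupOf 2 R := by
    rw [CfsgLib.LocalP.thompsonSubgroupOf_eq_sSup]; exact le_sSup hA
  have h1 := hle hzA
  rw [hbot, Subgroup.mem_bot] at h1
  exact hz1 h1

section Main

variable {G : Type*} [Group G] [Finite G]
  (hloc : ∀ M : Subgroup G, Cfsg.IsTwoLocal M →
    Group.IsSolvable M ∧ Cfsg.IsOfCharacteristicTwo ↥M ∧ ¬ Cfsg.Involves (Equiv.Perm (Fin 4)) ↥M)

theorem isTwoLocal_normalizer {T : Subgroup G} (h2 : IsPGroup 2 T) (hne : T ≠ ⊥) :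
    Cfsg.IsTwoLocal (Subgroup.normalizer (T : Set G)) := ⟨T, h2, hne, rfl⟩

omit [Finite G] in
theorem isTwoLocal_map {M : Subgroup G} (hM : Cfsg.IsTwoLocal M) (g : G) :
    Cfsg.IsTwoLocal (M.map (MulAut.conj g).toMonoidHom) := by
  obtain ⟨T, h2, hne, rfl⟩ := hM
  refine ⟨T.map (MulAut.conj g).toMonoidHom, h2.map _, ?_, ?_⟩
  · rwa [Ne, Subgroup.map_eq_bot_iff_of_injective _ (MulAut.conj g).injective]
  · exact Subgroup.map_equiv_normalizer_eq T (MulAut.conj g)

include hloc in
/-- The unique maximal 2-local subgroup over `S`: it contains every 2-local subgroup meeting `S`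
nontrivially. -/
theorem exists_maximum (S : Sylow 2 G) (hS : (S : Subgroup G) ≠ ⊥) :
    ∃ M0 : Subgroup G, Cfsg.IsTwoLocal M0 ∧ (S : Subgroup G) ≤ M0 ∧
      ∀ L : Subgroup G, Cfsg.IsTwoLocal L → (S : Subgroup G) ⊓ L ≠ ⊥ → L ≤ M0 := by
  classical
  haveI : Fact (Nat.Prime 2) := ⟨Nat.prime_two⟩
  set J := thompsonSubgroupOf 2 (S : Subgroup G) with hJ
  set Z := omegaCenter (S : Subgroup G) with hZ
  have hS2 : IsPGroup 2 (S : Subgroup G) := S.isPGroup'
  have hJne : J ≠ ⊥ := thompsonSubgroupOf_ne_bot hS2 hS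
  have hJ2 : IsPGroup 2 J := hS2.to_le (CfsgLib.LocalP.thompsonSubgroupOf_le _)
  have hZne : Z ≠ ⊥ := omegaCenter_ne_bot hS2 hS
  -- the subgroup `B = N(J)` and the module `V`
  set B := Subgroup.normalizer (J : Set G) with hB
  have hSB : (S : Subgroup G) ≤ B :=
    Subgroup.le_normalizer.trans (CfsgLib.LocalP.le_normalizer_thompsonSubgroupOf _)
  obtain ⟨hBsol, hBchar, hBS4⟩ := hloc B (isTwoLocal_normalizer hJ2 hJne)
  haveI := hBsol
  set SB : Sylow 2 B := S.subtype hSB with hSBdef
  have hmapSB : (SB : Subgroup B).map B.subtype = (S : Subgroup G) := by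
    rw [hSBdef, Sylow.coe_subtype, Subgroup.map_subgroupOf_eq_of_le hSB]
  obtain ⟨hel0, hW0S, hO20⟩ := closure_props (X := B) hBchar SB
  set W0 := Subgroup.normalClosure (omegaCenter (SB : Subgroup B) : Set B) with hW0
  set V := W0.map B.subtype with hV
  have hVS : V ≤ (S : Subgroup G) := by rw [← hmapSB]; exact Subgroup.map_mono hW0S
  have hVel : Elem V := hel0.map B.subtype
  have hZV : Z ≤ V := by
    rw [hZ, ← hmapSB, omegaCenter_map _ B.subtype_injective]
    exact Subgroup.map_mono Subgroup.subset_normalClosure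
  have hVne : V ≠ ⊥ := fun h => hZne (le_bot_iff.1 (h ▸ hZV))
  have hBV : B ≤ Subgroup.normalizer (V : Set G) := fun g hg => mem_normalizer_of_forall (by
    rintro _ ⟨w, hw, rfl⟩
    exact ⟨⟨g, hg⟩ * w * ⟨g, hg⟩⁻¹, Subgroup.normalClosure_normal.conj_mem w hw ⟨g, hg⟩, rfl⟩)
  have hJV : ∀ j ∈ J, ∀ v ∈ V, j * v = v * j := by
    intro j hj v hv
    obtain ⟨w, hw, rfl⟩ := hv
    have hle : W0 ≤ (Subgroup.centralizer (J : Set G)).comap B.subtype := by
      rw [hW0, Subgroup.normalClosure, Subgroup.closure_le]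
      intro w hw
      obtain ⟨z, hz, hzw⟩ := Group.mem_conjugatesOfSet_iff.1 hw
      obtain ⟨g, rfl⟩ := isConj_iff.1 hzw
      refine Subgroup.mem_comap.2 (Subgroup.mem_centralizer_iff.2 fun j hj => ?_)
      have hzG : (z : G) ∈ Z := by
        rw [hZ, ← hmapSB, omegaCenter_map _ B.subtype_injective]
        exact ⟨z, hz, rfl⟩
      have hjg : (g : G)⁻¹ * j * g ∈ J := (Subgroup.mem_normalizer_iff''.1 g.2 j).1 hj
      have h1 : Commute ((g : G)⁻¹ * j * g) z := Subgroup.mem_centralizer_iff.1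
        (mem_omegaCenter.1 hzG).1.2 _ (CfsgLib.LocalP.thompsonSubgroupOf_le _ hjg)
      have h2 := h1.map (MulAut.conj (g : G)).toMonoidHom
      simpa [mul_assoc, Commute, SemiconjBy] using h2
    exact Subgroup.mem_centralizer_iff.1 (Subgroup.mem_comap.1 (hle hw)) j hj
  -- the square bound
  have hbd : SqBound (S : Subgroup G) V := by
    intro E hE hc hs
    have hEB : E ≤ B := hE.trans hSB
    have hcent : ∀ z : B, (z : G) ∈ Subgroup.centralizer (V : Set G) →
        z ∈ Subgroup.centralizer (W0 : Set B) := fun z hz =>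
      Subgroup.mem_centralizer_iff.2 fun w hw =>
        Subtype.ext (Subgroup.mem_centralizer_iff.1 hz _ ⟨w, hw, rfl⟩)
    have h1 := square_bound hBS4 W0 hel0 hO20 (E.subgroupOf B)
      (fun a ha b hb => hcent _ (hc _ ha _ hb)) (fun a ha => hcent _ (hs _ ha))
    have hmapE : (E.subgroupOf B).map B.subtype = E := Subgroup.map_subgroupOf_eq_of_le hEB
    rw [← card_inf_centralizer_map B.subtype B.subtype_injective,
      ← card_inf_centralizer_map B.subtype B.subtype_injective, hmapE, ← hV,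
      ← Subgroup.card_map_of_injective (f := B.subtype) B.subtype_injective,
      ← Subgroup.card_map_of_injective (f := B.subtype) (K := W0) B.subtype_injective, hmapE,
      ← hV] at h1
    exact h1
  -- `C(Z) ≤ N(V)`
  set A := Subgroup.centralizer (Z : Set G) with hA
  have hSA : (S : Subgroup G) ≤ A := fun s hs => Subgroup.mem_centralizer_iff.2 fun z hz =>
    (Subgroup.mem_centralizer_iff.1 (mem_omegaCenter.1 hz).1.2 s hs).symm
  have hAN : A ≤ Subgroup.normalizer (V : Set G) := by
    set M1 := Subgroup.normalizer (Z : Set G) with hM1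
    have hZ2 : IsPGroup 2 Z := hS2.to_le (omegaCenter_le _)
    obtain ⟨hMsol, hMchar, hMS4⟩ := hloc M1 (isTwoLocal_normalizer hZ2 hZne)
    haveI := hMsol
    have hAM : A ≤ M1 := Subgroup.centralizer_le_normalizer _
    haveI : (A.subgroupOf M1).Normal := ⟨fun a ha g => by
      refine Subgroup.mem_subgroupOf.2 (Subgroup.mem_centralizer_iff.2 fun z hz => ?_)
      have hgz : (g : G)⁻¹ * z * g ∈ Z := (Subgroup.mem_normalizer_iff''.1 g.2 z).1 hz
      have h1 := (show Commute ((g : G)⁻¹ * z * g) a from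
        Subgroup.mem_centralizer_iff.1 ha _ hgz).map (MulAut.conj (g : G)).toMonoidHom
      simpa [mul_assoc, Commute, SemiconjBy] using h1⟩
    have hAchar : Subgroup.centralizer ((pCore 2 A : Subgroup A) : Set A) ≤ pCore 2 A :=
      CfsgLib.LocalP.charP_of_mulEquiv (Subgroup.subgroupOfEquivOfLe hAM)
        (CfsgLib.LocalP.charP_of_normalized hMchar (A.subgroupOf M1)
          (by rw [Subgroup.normalizer_eq_top]; exact le_top))
    haveI : Group.IsSolvable A :=
      Group.isSolvable_of_isSolvable_injective (Subgroup.inclusion_injective hAM)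
    have hAS4 : ¬ Cfsg.Involves (Equiv.Perm (Fin 4)) A := fun h => hMS4
      (CfsgLib.Offender.involves_of_subgroup (A.subgroupOf M1) (by
        obtain ⟨K, R, hn, ⟨e⟩⟩ := h
        let i : ↥(K.comap (Subgroup.subgroupOfEquivOfLe hAM).toMonoidHom) →* ↥K :=
          ((Subgroup.subgroupOfEquivOfLe hAM).toMonoidHom.comp
            (K.comap _).subtype).codRestrict K fun x => x.2
        have hi : Function.Surjective i := by
          rintro ⟨k, hk⟩
          obtain ⟨g, rfl⟩ := (Subgroup.subgroupOfEquivOfLe hAM).surjective k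
          exact ⟨⟨g, hk⟩, rfl⟩
        exact CfsgLib.Offender.involves_of_surjective _
          ((e.toMonoidHom.comp (QuotientGroup.mk' (R.subgroupOf K))).comp i)
          ((e.surjective.comp (QuotientGroup.mk'_surjective _)).comp hi)))
    set SA : Sylow 2 A := S.subtype hSA with hSAdef
    have hmapSA : (SA : Subgroup A).map A.subtype = (S : Subgroup G) := by
      rw [hSAdef, Sylow.coe_subtype, Subgroup.map_subgroupOf_eq_of_le hSA]
    have hJA : J = (thompsonSubgroupOf 2 (SA : Subgroup A)).map A.subtype := by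
      rw [hJ, ← hmapSA, CfsgLib.LocalP.thompsonSubgroupOf_map _ A.subtype_injective]
    have hmapV : (V.subgroupOf A).map A.subtype = V :=
      Subgroup.map_subgroupOf_eq_of_le (hVS.trans hSA)
    have htop := normal_of_sqBound _ (X := A) rfl hAS4 hAchar SA (V.subgroupOf A)
      (fun v hv => by rw [hSAdef, Sylow.coe_subtype]; exact hVS hv)
      ⟨fun a ha b hb => Subtype.ext (hVel.comm _ ha _ hb), fun a ha => Subtype.ext (hVel.sq _ ha)⟩
      (fun j hj v hv => Subtype.ext (hJV _ (hJA ▸ ⟨j, hj, rfl⟩) _ hv))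
      (fun z hz => mem_normalizer_of_forall fun v hv =>
        conj_mem_of_mem_normalizer (hBV (hSB (hmapSA ▸ ⟨z, hz, rfl⟩ : (z : G) ∈ (S : Subgroup G))))
          hv)
      (fun z hz => mem_normalizer_of_forall fun v hv => conj_mem_of_mem_normalizer
        (hBV (mem_normalizer_of_forall fun j hj => by
          rw [hJA] at hj ⊢
          obtain ⟨j, hj', rfl⟩ := hj
          exact ⟨z * j * z⁻¹, conj_mem_of_mem_normalizer hz hj', rfl⟩)) hv)
      (SqBound.of_map A.subtype A.subtype_injective (by rw [hmapSA, hmapV]; exact hbd))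
    intro a ha
    exact mem_normalizer_of_forall fun v hv => conj_mem_of_mem_normalizer
      (htop.ge (Subgroup.mem_top (⟨a, ha⟩ : A))) (m := ⟨v, hSA (hVS hv)⟩) hv
  set M0 := Subgroup.normalizer (V : Set G) with hM0
  have hSM0 : (S : Subgroup G) ≤ M0 := hSB.trans hBV
  refine ⟨M0, isTwoLocal_normalizer (hS2.to_le hVS) hVne, hSM0, ?_⟩
  -- descending induction
  suffices h : ∀ (k : ℕ) (L : Subgroup G), Cfsg.IsTwoLocal L →
      Nat.card ↥(S : Subgroup G) - Nat.card ↥((S : Subgroup G) ⊓ L) = k →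
      (S : Subgroup G) ⊓ L ≠ ⊥ → L ≤ M0 from fun L hL hne => h _ L hL rfl hne
  intro k
  induction k using Nat.strong_induction_on with
  | _ k ih =>
  intro L hL hk hne
  set P := (S : Subgroup G) ⊓ L with hP
  have hstep : ∀ L' : Subgroup G, Cfsg.IsTwoLocal L' →
      Nat.card P < Nat.card ↥((S : Subgroup G) ⊓ L') → L' ≤ M0 := by
    intro L' hL' hlt
    refine ih _ ?_ L' hL' rfl fun h0 => ?_
    · have := Subgroup.card_le_of_le (inf_le_left : (S : Subgroup G) ⊓ L' ≤ S)
      omega
    · rw [h0, Subgroup.card_bot] at hlt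
      have := Nat.card_pos (α := P)
      omega
  have hgrow : ∀ D R' : Subgroup G, IsPGroup 2 R' → D < R' →
      Nat.card D < Nat.card ↥(R' ⊓ Subgroup.normalizer (D : Set G)) := by
    intro D R' hR' hlt
    have h := CfsgLib.Signalizer.lt_normalizer_inf hR' hlt
    rw [inf_comm] at h
    exact lt_of_le_of_ne (Subgroup.card_le_of_le h.le)
      fun e => h.ne (Subgroup.eq_of_le_of_card_ge h.le e.ge)
  obtain ⟨hLsol, hLchar, hLS4⟩ := hloc L hL
  haveI := hLsol
  have hP2 : IsPGroup 2 P := hS2.to_le inf_le_left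
  obtain ⟨RL, hRL⟩ := (hP2.comap_of_injective L.subtype L.subtype_injective).exists_le_sylow
  set R := (RL : Subgroup L).map L.subtype with hR
  have hR2 : IsPGroup 2 R := RL.isPGroup'.map _
  have hPR : P ≤ R := fun z hz => ⟨⟨z, hz.2⟩, hRL hz, rfl⟩
  have hRLle : R ≤ L := Subgroup.map_subtype_le _
  by_cases hRS : R ≤ (S : Subgroup G)
  · have hRP : R = P := le_antisymm (le_inf hRS hRLle) hPR
    have hfac := factor (X := L) hLS4 hLchar RL
    have htop : (⊤ : Subgroup L).map L.subtype ≤ M0 := by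
      rw [← hfac, Subgroup.map_sup]
      refine sup_le ?_ ?_
      · rintro _ ⟨c, hc, rfl⟩
        refine hAN (Subgroup.mem_centralizer_iff.2 fun z hz => ?_)
        obtain ⟨T, hT2, hTne, rfl⟩ := hL
        have hTR : T ≤ R := by
          intro x hx
          have hn : (T.subgroupOf (Subgroup.normalizer (T : Set G))).Normal :=
            Subgroup.normal_in_normalizer
          exact ⟨⟨x, Subgroup.le_normalizer hx⟩, CfsgLib.CharP.pCore_le_sylow RL
            (CfsgLib.Constrained.le_pCore hn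
              (hT2.comap_of_injective _ (Subgroup.subtype_injective _)) hx), rfl⟩
        obtain ⟨hzS, hz2⟩ := mem_omegaCenter.1 hz
        have hzN : z ∈ Subgroup.normalizer (T : Set G) := mem_normalizer_of_forall fun x hx => by
          rw [← Subgroup.mem_centralizer_iff.1 hzS.2 x (hRS (hTR hx)), mul_inv_cancel_right]
          exact hx
        have hzR : z ∈ R := hRP ▸ Subgroup.mem_inf.2 ⟨hzS.1, hzN⟩
        obtain ⟨z', hz', rfl⟩ := hzR
        have hz'' : z' ∈ omegaCenter (RL : Subgroup _) := mem_omegaCenter.2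
          ⟨⟨hz', Subgroup.mem_centralizer_iff.2 fun r hr => Subtype.ext
            (Subgroup.mem_centralizer_iff.1 hzS.2 _ (hRS ⟨r, hr, rfl⟩))⟩, Subtype.ext hz2⟩
        exact congrArg Subtype.val (Subgroup.mem_centralizer_iff.1 hc z' hz'')
      · have hJR : (thompsonSubgroupOf 2 (RL : Subgroup L)).map L.subtype =
            thompsonSubgroupOf 2 R := by
          rw [hR, CfsgLib.LocalP.thompsonSubgroupOf_map _ L.subtype_injective]
        have hle : (Subgroup.normalizer (thompsonSubgroupOf 2 (RL : Subgroup L) : Set L)).map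
            L.subtype ≤ Subgroup.normalizer (thompsonSubgroupOf 2 R : Set G) := by
          rintro _ ⟨n, hn, rfl⟩
          rw [← hJR]
          exact mem_normalizer_of_forall (by
            rintro _ ⟨j, hj, rfl⟩
            exact ⟨n * j * n⁻¹, conj_mem_of_mem_normalizer hn hj, rfl⟩)
        refine hle.trans ?_
        rcases eq_or_lt_of_le hRS with hEq | hlt
        · rw [hEq]; exact hBV
        · have hRne : R ≠ ⊥ := hRP ▸ hne
          refine hstep _ (isTwoLocal_normalizer (hR2.to_le (CfsgLib.LocalP.thompsonSubgroupOf_le _))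
            (thompsonSubgroupOf_ne_bot hR2 hRne)) ?_
          rw [← hRP]
          exact lt_of_lt_of_le (hgrow R _ hS2 hlt) (Subgroup.card_le_of_le
            (inf_le_inf_left _ (CfsgLib.LocalP.le_normalizer_thompsonSubgroupOf _)))
    rwa [← MonoidHom.range_eq_map, Subgroup.range_subtype] at htop
  · have hPltR : P < R := lt_of_le_of_ne hPR fun e => hRS (e ▸ inf_le_left)
    have hPltS : P < (S : Subgroup G) := by
      refine lt_of_le_of_ne inf_le_left fun e => hRS ?_
      rw [← S.is_maximal' hR2 (e ▸ hPR)]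
    have hNP : Subgroup.normalizer (P : Set G) ≤ M0 :=
      hstep _ (isTwoLocal_normalizer hP2 hne) (hgrow P _ hS2 hPltS)
    set D := R ⊓ Subgroup.normalizer (P : Set G) with hD
    obtain ⟨m, hm, hmD⟩ := CfsgLib.LocalCharP.exists_conj_mem_sylow S hSM0 D
      (inf_le_right.trans hNP) (hR2.to_le inf_le_left)
    have hsub : L.map (MulAut.conj m).toMonoidHom ≤ M0 := by
      refine hstep _ (isTwoLocal_map hL m) (lt_of_lt_of_le (hgrow P R hR2 hPltR) ?_)
      rw [← Subgroup.card_map_of_injective (f := (MulAut.conj m).toMonoidHom) (K := D)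
        (MulAut.conj m).injective]
      refine Subgroup.card_le_of_le ?_
      rintro _ ⟨d, hd, rfl⟩
      exact Subgroup.mem_inf.2 ⟨hmD d hd, ⟨d, hRLle hd.1, rfl⟩⟩
    intro l hl
    have h1 : m * l * m⁻¹ ∈ M0 := hsub ⟨l, hl, rfl⟩
    have h2 := mul_mem (mul_mem (inv_mem hm) h1) hm
    simpa [mul_assoc] using h2

include hloc in
/-- Every maximal 2-local subgroup is strongly embedded. -/
theorem isStronglyEmbedded_of_isMaximal (hO : pCore 2 G = ⊥) (M : Subgroup G)
    (hM : Cfsg.IsMaximalTwoLocal M) : Cfsg.IsStronglyEmbedded M := by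
  haveI : Fact (Nat.Prime 2) := ⟨Nat.prime_two⟩
  obtain ⟨T, hT2, hTne, hMT⟩ := hM.1
  obtain ⟨S, hS⟩ := hT2.exists_le_sylow
  have hSne : (S : Subgroup G) ≠ ⊥ := fun h => hTne (le_bot_iff.1 (h ▸ hS))
  obtain ⟨M0, hM0, hSM0, hall⟩ := exists_maximum hloc S hSne
  have hMM0 : M ≤ M0 := hall M hM.1 fun h0 => hTne (le_bot_iff.1 (h0 ▸ le_inf hS
    (hMT ▸ Subgroup.le_normalizer)))
  obtain rfl := hM.2 M0 hM0 hMM0
  refine CfsgLib.StronglyEmbedded.intro_of_sylow ?_ S hSM0 hSne fun Q hQ hQne =>
    hall _ (isTwoLocal_normalizer (S.isPGroup'.to_le hQ) hQne) fun h0 =>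
      hQne (le_bot_iff.1 (h0 ▸ le_inf hQ Subgroup.le_normalizer))
  intro htop
  apply hTne
  rw [eq_bot_iff, ← hO]
  exact CfsgLib.Constrained.le_pCore
    (Subgroup.normalizer_eq_top_iff.1 (hMT.symm.trans htop)) hT2

end Main

end CfsgLib.SolvableSFour
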